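import Cfsg.Agent.H41.Torus

/-!
# Element orders in `PSL₂(q)`: six of them when `q = 2ⁿ`, `n ≥ 4`, or `q = 2^k ± 1 ≥ 17`
-/

set_option autoImplicit false

namespace Cfsg.Agent.H93.F5

open Cfsg.Agent.H41

theorem psl2_minus {F : Type} [Field F] [Fintype F] (m : ℕ)
    (hm : m ∣ (Fintype.card F - 1) / (Fintype.card F - 1).gcd 2) :
    ∃ x : Matrix.ProjectiveSpecialLinearGroup (Fin 2) F, orderOf x = m := by
  classical
  refine exists_orderOf_of_dvd_card_range (C := Fˣ) spHom spHom_eq_iff m ?_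
  rwa [Nat.card_eq_fintype_card, Fintype.card_units]

theorem psl2_plus {F : Type} [Field F] [Fintype F] (m : ℕ)
    (hm : m ∣ (Fintype.card F + 1) / (Fintype.card F + 1).gcd 2) :
    ∃ x : Matrix.ProjectiveSpecialLinearGroup (Fin 2) F, orderOf x = m := by
  obtain ⟨K, i1, i2, i3, h2⟩ := exists_quadExt (F := F)
  refine exists_orderOf_of_dvd_card_range (C := normOne F K) (nsHom h2) (nsHom_eq_iff h2) m ?_
  rw [card_normOne h2, Nat.card_eq_fintype_card]
  exact hm

/-- six orders in a group containing elements of orders `2, m` and `m'`, where `m = 3k`, `k ≥ 5` odd -/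
theorem six_even {G : Type*} [Group G] (T : ℕ → Prop) {m m' k : ℕ} (hm : m = 3 * k) (hk : 5 ≤ k)
    (hc : Nat.Coprime m m') (hm' : 2 < m') (ho : Odd m) (ho' : Odd m')
    (h1 : T 1) (h2 : T 2) (hT : ∀ d, d ∣ m → T d) (hT' : T m') :
    ∃ S : Finset ℕ, S.card = 6 ∧ ∀ d ∈ S, T d := by
  have a1 : m' ≠ 3 := by
    rintro rfl
    rw [hm, Nat.coprime_mul_iff_left] at hc
    norm_num at hc
  have a2 : m' ≠ k := by
    rintro rfl
    rw [hm, Nat.coprime_mul_iff_left, Nat.coprime_self] at hc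
    omega
  have a3 : m' ≠ 3 * k := by
    intro h
    rw [hm, h, Nat.coprime_self] at hc
    omega
  have a4 : k ≠ 2 := by omega
  have ok : Odd k := by
    rw [hm] at ho
    exact (Nat.odd_mul.1 ho).2
  refine ⟨{1, 2, 3, k, 3 * k, m'}, ?_, ?_⟩
  · rw [Finset.card_insert_of_notMem, Finset.card_insert_of_notMem, Finset.card_insert_of_notMem,
      Finset.card_insert_of_notMem, Finset.card_insert_of_notMem, Finset.card_singleton]
    all_goals simp only [Finset.mem_insert, Finset.mem_singleton, not_or]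
    all_goals refine ?_
    · omega
    · omega
    · omega
    · omega
    · omega
  · intro d hd
    simp only [Finset.mem_insert, Finset.mem_singleton] at hd
    rcases hd with rfl | rfl | rfl | rfl | rfl | rfl
    · exact h1
    · exact h2
    · exact hT 3 ⟨k, hm⟩
    · exact hT _ ⟨3, by rw [hm]; ring⟩
    · exact hT _ ⟨1, by rw [hm]; ring⟩
    · exact hT'

/-- at least six element orders in `PSL₂(2ⁿ)`, `n ≥ 4` -/
theorem psl2_even {F : Type} [Field F] [Fintype F] {n : ℕ} (hn : 4 ≤ n) (hF : Fintype.card F = 2 ^ n)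
    (h2 : ∃ x : Matrix.ProjectiveSpecialLinearGroup (Fin 2) F, orderOf x = 2) :
    ∃ S : Finset ℕ, S.card = 6 ∧ ∀ d ∈ S,
      ∃ x : Matrix.ProjectiveSpecialLinearGroup (Fin 2) F, orderOf x = d := by
  have h16 : 16 ≤ 2 ^ n := by
    calc 16 = 2 ^ 4 := by norm_num
      _ ≤ 2 ^ n := Nat.pow_le_pow_right (by norm_num) hn
  have heven : Even (2 ^ n) := (Nat.even_pow).2 ⟨even_two, by omega⟩
  obtain ⟨e, he⟩ := heven
  have g1 : (2 ^ n - 1).gcd 2 = 1 := by
    rw [← Nat.coprime_iff_gcd_eq_one, Nat.coprime_two_right]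
    exact ⟨e - 1, by omega⟩
  have g2 : (2 ^ n + 1).gcd 2 = 1 := by
    rw [← Nat.coprime_iff_gcd_eq_one, Nat.coprime_two_right]
    exact ⟨e, by omega⟩
  have hmin : ∀ d, d ∣ 2 ^ n - 1 → ∃ x : Matrix.ProjectiveSpecialLinearGroup (Fin 2) F, orderOf x = d := by
    intro d hd
    apply psl2_minus
    rw [hF, g1, Nat.div_one]
    exact hd
  have hpl : ∀ d, d ∣ 2 ^ n + 1 → ∃ x : Matrix.ProjectiveSpecialLinearGroup (Fin 2) F, orderOf x = d := by
    intro d hd
    apply psl2_plus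
    rw [hF, g2, Nat.div_one]
    exact hd
  have hcop : Nat.Coprime (2 ^ n - 1) (2 ^ n + 1) := by
    have h1 : 2 ^ n + 1 = 2 + (2 ^ n - 1) := by omega
    rw [h1, Nat.coprime_add_self_right, Nat.coprime_two_right]
    exact ⟨e - 1, by omega⟩
  have hone : ∃ x : Matrix.ProjectiveSpecialLinearGroup (Fin 2) F, orderOf x = 1 := ⟨1, orderOf_one⟩
  have h3 : 2 ^ n % 3 = 1 ∨ 2 ^ n % 3 = 2 := by
    have : ¬ 3 ∣ 2 ^ n := fun h => by
      have := Nat.Prime.dvd_of_dvd_pow Nat.prime_three h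
      omega
    omega
  rcases h3 with h3 | h3
  · obtain ⟨k, hk⟩ : ∃ k, 2 ^ n - 1 = 3 * k := ⟨(2 ^ n - 1) / 3, by omega⟩
    exact six_even (G := Matrix.ProjectiveSpecialLinearGroup (Fin 2) F) _ hk (by omega) hcop (by omega)
      ⟨e - 1, by omega⟩ ⟨e, by omega⟩ hone h2 hmin (hpl _ dvd_rfl)
  · obtain ⟨k, hk⟩ : ∃ k, 2 ^ n + 1 = 3 * k := ⟨(2 ^ n + 1) / 3, by omega⟩
    exact six_even (G := Matrix.ProjectiveSpecialLinearGroup (Fin 2) F) _ hk (by omega) hcop.symm (by omega)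
      ⟨e, by omega⟩ ⟨e - 1, by omega⟩ hone h2 hpl (hmin _ dvd_rfl)

/-- at least six element orders in `PSL₂(ℓ)`, `ℓ = 2^k ± 1 ≥ 17` prime -/
theorem psl2_odd {F : Type} [Field F] [Fintype F] {k : ℕ} (hk : 4 ≤ k)
    (hF : Fintype.card F = 2 ^ k + 1 ∨ Fintype.card F + 1 = 2 ^ k)
    (hl : ∃ x : Matrix.ProjectiveSpecialLinearGroup (Fin 2) F, orderOf x = Fintype.card F) :
    ∃ S : Finset ℕ, S.card = 6 ∧ ∀ d ∈ S,
      ∃ x : Matrix.ProjectiveSpecialLinearGroup (Fin 2) F, orderOf x = d := by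
  obtain ⟨j, rfl⟩ : ∃ j, k = j + 4 := ⟨k - 4, by omega⟩
  have hj : 1 ≤ 2 ^ j := Nat.one_le_two_pow
  have hone : ∃ x : Matrix.ProjectiveSpecialLinearGroup (Fin 2) F, orderOf x = 1 := ⟨1, orderOf_one⟩
  have e : 2 ^ (j + 4) = 16 * 2 ^ j := by ring
  have h8 : ∀ d, d ∣ 8 * 2 ^ j → ∃ x : Matrix.ProjectiveSpecialLinearGroup (Fin 2) F, orderOf x = d := by
    intro d hd
    rcases hF with hF | hF
    · apply psl2_minus
      have h1 : Fintype.card F - 1 = 2 * (8 * 2 ^ j) := by omega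
      rw [h1, Nat.gcd_eq_right (Dvd.intro _ rfl), Nat.mul_div_cancel_left _ (by norm_num)]
      exact hd
    · apply psl2_plus
      have h1 : Fintype.card F + 1 = 2 * (8 * 2 ^ j) := by omega
      rw [h1, Nat.gcd_eq_right (Dvd.intro _ rfl), Nat.mul_div_cancel_left _ (by norm_num)]
      exact hd
  obtain ⟨m', hm1, hm2, hm3, hm4⟩ : ∃ m' : ℕ, Odd m' ∧ 8 * 2 ^ j - 1 ≤ m' ∧ m' < Fintype.card F ∧
      ∃ x : Matrix.ProjectiveSpecialLinearGroup (Fin 2) F, orderOf x = m' := by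
    rcases hF with hF | hF
    · refine ⟨8 * 2 ^ j + 1, ⟨4 * 2 ^ j, by ring⟩, by omega, by omega, ?_⟩
      apply psl2_plus
      have h1 : Fintype.card F + 1 = 2 * (8 * 2 ^ j + 1) := by omega
      rw [h1, Nat.gcd_eq_right (Dvd.intro _ rfl), Nat.mul_div_cancel_left _ (by norm_num)]
    · refine ⟨8 * 2 ^ j - 1, ⟨4 * 2 ^ j - 1, by omega⟩, by omega, by omega, ?_⟩
      apply psl2_minus
      have h1 : Fintype.card F - 1 = 2 * (8 * 2 ^ j - 1) := by omega
      rw [h1, Nat.gcd_eq_right (Dvd.intro _ rfl), Nat.mul_div_cancel_left _ (by norm_num)]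
  obtain ⟨l, hl'⟩ := hm1
  refine ⟨{1, 2, 4, 8, m', Fintype.card F}, ?_, ?_⟩
  · rw [Finset.card_insert_of_notMem, Finset.card_insert_of_notMem, Finset.card_insert_of_notMem,
      Finset.card_insert_of_notMem, Finset.card_insert_of_notMem, Finset.card_singleton]
    all_goals simp only [Finset.mem_insert, Finset.mem_singleton, not_or]
    all_goals omega
  · intro d hd
    simp only [Finset.mem_insert, Finset.mem_singleton] at hd
    rcases hd with rfl | rfl | rfl | rfl | rfl | rfl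
    · exact hone
    · exact h8 2 ⟨4 * 2 ^ j, by ring⟩
    · exact h8 4 ⟨2 * 2 ^ j, by ring⟩
    · exact h8 8 ⟨2 ^ j, by ring⟩
    · exact hm4
    · exact hl

end Cfsg.Agent.H93.F5
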