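import Cfsg.Agent.H93.F5.SE
import Cfsg.Agent.Uni.SU
import Cfsg.Agent.H41.SL2
import Cfsg.Prelude.Def_Exceptional

/-!
# The groups on Bender's list do not have the spectrum `{1, 2, p, q, 2p}`
-/

set_option autoImplicit false
set_option linter.unusedSectionVars false

universe u

namespace Cfsg.Agent.H93.F5

open Cfsg Cfsg.Agent

theorem three_coprime {N p q a b c : ℕ} (h : ∀ r : ℕ, r.Prime → r ∣ N → r = 2 ∨ r = p ∨ r = q)
    (ha : a ∣ N) (hb : b ∣ N) (hc : c ∣ N) (ha1 : 1 < a) (hb1 : 1 < b) (hc1 : 1 < c) (oa : Odd a)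
    (ob : Odd b) (oc : Odd c) (hab : Nat.Coprime a b) (hac : Nat.Coprime a c) (hbc : Nat.Coprime b c) :
    False := by
  obtain ⟨r, hr, hra⟩ := Nat.exists_prime_and_dvd (n := a) (by omega)
  obtain ⟨s, hs, hsb⟩ := Nat.exists_prime_and_dvd (n := b) (by omega)
  obtain ⟨t, ht, htc⟩ := Nat.exists_prime_and_dvd (n := c) (by omega)
  have odd2 : ∀ x y : ℕ, Odd y → x ∣ y → x ≠ 2 := by
    rintro x y hy hx rfl
    exact (Nat.not_even_iff_odd.2 hy) (even_iff_two_dvd.2 hx)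
  have ne : ∀ x y u v : ℕ, x.Prime → x ∣ u → y ∣ v → Nat.Coprime u v → x ≠ y := by
    rintro x y u v hx hxu hyv huv rfl
    have h1 := Nat.dvd_gcd hxu hyv
    rw [huv] at h1
    exact hx.one_lt.ne' (Nat.dvd_one.1 h1)
  have e1 := ne r s a b hr hra hsb hab
  have e2 := ne r t a c hr hra htc hac
  have e3 := ne s t b c hs hsb htc hbc
  have k1 := (h r hr (hra.trans ha)).resolve_left (odd2 r a oa hra)
  have k2 := (h s hs (hsb.trans hb)).resolve_left (odd2 s b ob hsb)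
  have k3 := (h t ht (htc.trans hc)).resolve_left (odd2 t c oc htc)
  omega

/-- three coprime odd divisors for the Suzuki orders -/
theorem suzuki_false {G : Type u} [Group G] {p q : ℕ}
    (h : ∀ r : ℕ, r.Prime → r ∣ Nat.card G → r = 2 ∨ r = p ∨ r = q) (hG : Cfsg.IsSuzuki G) : False := by
  obtain ⟨-, m, hm, hc⟩ := hG
  set r := 2 ^ (m + 1) with hr
  have hr4 : 4 ≤ r := by
    calc 4 = 2 ^ 2 := by norm_num
      _ ≤ r := Nat.pow_le_pow_right (by norm_num) (by omega)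
  obtain ⟨s, hs⟩ : ∃ s, r = 2 * s := ⟨2 ^ m, by rw [hr, pow_succ]; ring⟩
  have hs2 : 2 ≤ s := by omega
  have hsm : s = 2 ^ m := by
    have : 2 * s = 2 * 2 ^ m := by rw [← hs, hr, pow_succ]; ring
    omega
  have hq : 2 ^ (2 * m + 1) = 2 * s ^ 2 := by
    rw [hsm]; ring
  have hse : Even s := by
    rw [hsm]
    exact (Nat.even_pow).2 ⟨even_two, by omega⟩
  obtain ⟨e, he⟩ := hse
  rw [hq] at hc
  have hss : 2 * s ≤ s ^ 2 := by nlinarith
  obtain ⟨w, hw⟩ : ∃ w, s ^ 2 = 2 * s + w := ⟨s ^ 2 - 2 * s, by omega⟩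
  have hwe : Even w := by
    have h1 : Even (s ^ 2) := (Nat.even_pow).2 ⟨⟨e, he⟩, by norm_num⟩
    rw [hw] at h1
    exact (Nat.even_add.1 h1).1 (even_two_mul s)
  -- `q = 2 s²`, `q - 2s + 1`, `q + 2s + 1`, `q - 1`
  have hprod : (2 * s ^ 2) ^ 2 + 1 = (2 * s ^ 2 - 2 * s + 1) * (2 * s ^ 2 + 2 * s + 1) := by
    have h1 : 2 * s ^ 2 - 2 * s + 1 = s ^ 2 + w + 1 := by omega
    rw [h1]
    have h2 : w = s ^ 2 - 2 * s := by omega
    zify [hss] at h2 ⊢
    rw [h2]
    ring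
  rw [hprod] at hc
  have ob : Odd (2 * s ^ 2 - 2 * s + 1) := ⟨s ^ 2 - s, by omega⟩
  have oc : Odd (2 * s ^ 2 + 2 * s + 1) := ⟨s ^ 2 + s, by omega⟩
  have oa : Odd (2 * s ^ 2 - 1) := ⟨s ^ 2 - 1, by omega⟩
  have hbc : Nat.Coprime (2 * s ^ 2 - 2 * s + 1) (2 * s ^ 2 + 2 * s + 1) := by
    have h1 : 2 * s ^ 2 + 2 * s + 1 = 2 ^ (m + 2) + (2 * s ^ 2 - 2 * s + 1) := by
      have : 2 ^ (m + 2) = 4 * s := by rw [hsm]; ring
      omega
    rw [h1, Nat.coprime_add_self_right]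
    exact Nat.Coprime.pow_right _ ((Nat.coprime_two_right).2 ob)
  have hd : Nat.Coprime (2 * s ^ 2 - 1) ((2 * s ^ 2 - 2 * s + 1) * (2 * s ^ 2 + 2 * s + 1)) := by
    rw [← hprod]
    have h1 : (2 * s ^ 2) ^ 2 + 1 = 2 + (2 * s ^ 2 - 1) * (2 * s ^ 2 + 1) := by
      have h2 : 1 ≤ 2 * s ^ 2 := by omega
      zify [h2]
      ring
    rw [h1, Nat.coprime_add_mul_left_right, Nat.coprime_two_right]
    exact oa
  refine three_coprime h (a := 2 * s ^ 2 - 1) (b := 2 * s ^ 2 - 2 * s + 1) (c := 2 * s ^ 2 + 2 * s + 1)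
    ?_ ?_ ?_ (by omega) (by omega) (by omega) oa ob oc (Nat.Coprime.coprime_mul_right_right hd)
    (Nat.Coprime.coprime_mul_left_right hd) hbc
  · rw [hc]; exact Dvd.intro_left _ rfl
  · rw [hc]; exact Dvd.dvd.mul_right (Dvd.dvd.mul_left (Dvd.intro _ rfl) _) _
  · rw [hc]; exact Dvd.dvd.mul_right (Dvd.dvd.mul_left (Dvd.intro_left _ rfl) _) _

theorem psu_false {F : Type} [Field F] [Fintype F] {n p q : ℕ} (hF : Fintype.card F = n ^ 2)
    (hn : Even n) (hn4 : 4 ≤ n)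
    (h : ∀ r : ℕ, r.Prime → r ∣ Nat.card (Cfsg.PSU 3 F n) → r = 2 ∨ r = p ∨ r = q) : False := by
  have hc := Uni.card_PSU (n := 3) hF (by norm_num)
  simp only [Finset.prod_range_succ, Finset.prod_range_zero, one_mul] at hc
  have hE0 : Even 0 := by decide
  have hE1 : ¬ Even 1 := by decide
  have hE2 : Even 2 := by decide
  rw [if_pos hE0, if_neg hE1, if_pos hE2] at hc
  norm_num at hc
  obtain ⟨a, rfl⟩ : ∃ a, n = a + 1 := ⟨n - 1, by omega⟩
  have e2 : (a + 1) ^ 2 - 1 = a * (a + 2) := by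
    have : (a + 1) ^ 2 = a * (a + 2) + 1 := by ring
    omega
  rw [e2] at hc
  set N := Nat.card (Cfsg.PSU 3 F (a + 1)) with hN
  set d := Nat.gcd 3 (a + 1 + 1) with hd
  -- `d N = (a+1)^3 (a+2) a ((a+1)^3+1)`
  have h1 : d * N = (a + 1) ^ 3 * ((a * (a + 2)) * ((a + 1) ^ 3 + 1)) := by
    have h2 : (a + 2) * (d * N) = (a + 2) * ((a + 1) ^ 3 * ((a * (a + 2)) * ((a + 1) ^ 3 + 1))) := by
      have : (a + 1 + 1) = a + 2 := by ring
      rw [this] at hc
      calc (a + 2) * (d * N) = d * ((a + 2) * N) := by ring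
        _ = _ := by rw [hc]; ring
    exact Nat.eq_of_mul_eq_mul_left (by omega) h2
  obtain ⟨k, hk⟩ : d ∣ a + 2 := by
    have := Nat.gcd_dvd_right 3 (a + 1 + 1)
    have e : a + 1 + 1 = a + 2 := by ring
    rwa [e] at this
  have hd0 : 0 < d := Nat.gcd_pos_of_pos_left _ (by norm_num)
  have hfac : (a + 1) ^ 3 + 1 = (a + 2) * (a ^ 2 + a + 1) := by ring
  have h3 : N = (a + 1) ^ 3 * ((a * (a + 2)) * (k * (a ^ 2 + a + 1))) := by
    apply Nat.eq_of_mul_eq_mul_left hd0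
    rw [h1, hfac, hk]
    ring
  obtain ⟨e, he⟩ := hn
  have oa : Odd a := ⟨e - 1, by omega⟩
  have ob : Odd (a + 2) := ⟨e, by omega⟩
  have ha2 : Odd (a ^ 2 + a + 1) := by
    have : a ^ 2 + a = a * (a + 1) := by ring
    rw [this]
    exact (Nat.even_mul_succ_self a).add_one
  have hab : Nat.Coprime a (a + 2) := by
    have h4 : a + 2 = 2 + a := by ring
    rw [h4, Nat.coprime_add_self_right, Nat.coprime_two_right]
    exact oa
  have hac : Nat.Coprime a (a ^ 2 + a + 1) := by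
    have h4 : a ^ 2 + a + 1 = 1 + a * (a + 1) := by ring
    rw [h4, Nat.coprime_add_mul_left_right]
    exact Nat.coprime_one_right a
  have hg : ∀ x : ℕ, x ∣ a + 2 → x ∣ a ^ 2 + a + 1 → x ∣ 3 := by
    intro x hx hy
    have h4 : a ^ 2 + a + 1 + (a + 2) = (a + 2) * a + 3 := by ring
    have h5 : x ∣ (a + 2) * a + 3 := h4 ▸ dvd_add hy hx
    exact (Nat.dvd_add_right (Dvd.dvd.mul_right hx a)).1 h5
  by_cases h3d : 3 ∣ a + 2
  · -- `a² + a + 1 = 3 c`, `3 ∤ c`
    obtain ⟨j, hj⟩ := h3d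
    have hj1 : 1 ≤ j := by omega
    obtain ⟨i, rfl⟩ : ∃ i, j = i + 1 := ⟨j - 1, by omega⟩
    have haj : a = 3 * i + 1 := by omega
    have hcc : a ^ 2 + a + 1 = 3 * (3 * i ^ 2 + 3 * i + 1) := by rw [haj]; ring
    have oc : Odd (3 * i ^ 2 + 3 * i + 1) := by
      rw [hcc] at ha2
      exact (Nat.odd_mul.1 ha2).2
    refine three_coprime h (a := a) (b := a + 2) (c := 3 * i ^ 2 + 3 * i + 1) ?_ ?_ ?_ (by omega)
      (by omega) (by nlinarith) oa ob oc hab ?_ ?_
    · rw [h3]; exact Dvd.dvd.mul_left (Dvd.dvd.mul_right (Dvd.intro _ rfl) _) _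
    · rw [h3]; exact Dvd.dvd.mul_left (Dvd.dvd.mul_right (Dvd.intro_left _ rfl) _) _
    · rw [h3, hcc]
      exact Dvd.dvd.mul_left (Dvd.dvd.mul_left (Dvd.dvd.mul_left (Dvd.intro_left _ rfl) _) _) _
    · rw [hcc] at hac
      exact Nat.Coprime.coprime_mul_left_right hac
    · rw [Nat.coprime_iff_gcd_eq_one]
      set x := Nat.gcd (a + 2) (3 * i ^ 2 + 3 * i + 1) with hx
      have hx1 : x ∣ a + 2 := Nat.gcd_dvd_left _ _
      have hx2 : x ∣ 3 * i ^ 2 + 3 * i + 1 := Nat.gcd_dvd_right _ _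
      have hx3 : x ∣ 3 := hg x hx1 (by rw [hcc]; exact Dvd.dvd.mul_left hx2 3)
      rcases (Nat.dvd_prime Nat.prime_three).1 hx3 with h5 | h5
      · exact h5
      · exfalso
        rw [h5] at hx2
        omega
  · have hbc : Nat.Coprime (a + 2) (a ^ 2 + a + 1) := by
      rw [Nat.coprime_iff_gcd_eq_one]
      have hx3 := hg _ (Nat.gcd_dvd_left (a + 2) (a ^ 2 + a + 1)) (Nat.gcd_dvd_right _ _)
      rcases (Nat.dvd_prime Nat.prime_three).1 hx3 with h5 | h5
      · exact h5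
      · exfalso
        exact h3d (h5 ▸ Nat.gcd_dvd_left (a + 2) (a ^ 2 + a + 1))
    refine three_coprime h (a := a) (b := a + 2) (c := a ^ 2 + a + 1) ?_ ?_ ?_ (by omega)
      (by omega) (by nlinarith) oa ob ha2 hab hac hbc
    · rw [h3]; exact Dvd.dvd.mul_left (Dvd.dvd.mul_right (Dvd.intro _ rfl) _) _
    · rw [h3]; exact Dvd.dvd.mul_left (Dvd.dvd.mul_right (Dvd.intro_left _ rfl) _) _
    · rw [h3]
      exact Dvd.dvd.mul_left (Dvd.dvd.mul_left (Dvd.intro_left _ rfl) _) _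

/-- In characteristic two an element of `SL₂` commuting with an involution has trace zero. -/
theorem sl2_sq {F : Type*} [Field F] [CharP F 2] {A B : Matrix.SpecialLinearGroup (Fin 2) F}
    (hc : A * B = B * A) (hB : B * B = 1) (hB1 : B ≠ 1) : A * A = 1 := by
  have h2 : (2 : F) = 0 := by exact_mod_cast CharP.cast_eq_zero F 2
  have m : ∀ (X Y : Matrix.SpecialLinearGroup (Fin 2) F) (i j : Fin 2),
      (X * Y) i j = X i 0 * Y 0 j + X i 1 * Y 1 j := by
    intro X Y i j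
    rw [Matrix.SpecialLinearGroup.coe_mul, Matrix.mul_apply, Fin.sum_univ_two]
  have dA := A.det_coe
  have dB := B.det_coe
  rw [Matrix.det_fin_two] at dA dB
  have b00 : B 0 0 * B 0 0 + B 0 1 * B 1 0 = 1 := by rw [← m, hB]; rfl
  have b01 : B 0 0 * B 0 1 + B 0 1 * B 1 1 = 0 := by rw [← m, hB]; rfl
  have b10 : B 1 0 * B 0 0 + B 1 1 * B 1 0 = 0 := by rw [← m, hB]; rfl
  have b11 : B 1 0 * B 0 1 + B 1 1 * B 1 1 = 1 := by rw [← m, hB]; rfl
  have c00 : A 0 0 * B 0 0 + A 0 1 * B 1 0 = B 0 0 * A 0 0 + B 0 1 * A 1 0 := by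
    rw [← m, ← m, hc]
  have c01 : A 0 0 * B 0 1 + A 0 1 * B 1 1 = B 0 0 * A 0 1 + B 0 1 * A 1 1 := by
    rw [← m, ← m, hc]
  have c10 : A 1 0 * B 0 0 + A 1 1 * B 1 0 = B 1 0 * A 0 0 + B 1 1 * A 1 0 := by
    rw [← m, ← m, hc]
  -- `tr B = 0`
  have tB : B 0 0 = B 1 1 := by
    by_contra hne
    have ht : B 0 0 + B 1 1 ≠ 0 := by
      intro h
      apply hne
      linear_combination h - B 1 1 * h2
    have e01 : B 0 1 = 0 := by
      apply (mul_eq_zero.1 (show B 0 1 * (B 0 0 + B 1 1) = 0 by linear_combination b01)).resolve_right ht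
    have e10 : B 1 0 = 0 := by
      apply (mul_eq_zero.1 (show B 1 0 * (B 0 0 + B 1 1) = 0 by linear_combination b10)).resolve_right ht
    have e00 : B 0 0 = 0 := by
      apply (mul_eq_zero.1 (show B 0 0 * (B 0 0 + B 1 1) = 0 by
        linear_combination b00 + dB + h2)).resolve_right ht
    rw [e00, e01] at dB
    apply one_ne_zero (α := F)
    rw [← dB]; ring
  have tA : A 0 0 = A 1 1 := by
    by_contra hne
    have hd : A 0 0 - A 1 1 ≠ 0 := sub_ne_zero.2 hne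
    have e01 : B 0 1 = 0 := by
      apply (mul_eq_zero.1 (show B 0 1 * (A 0 0 - A 1 1) = 0 by
        linear_combination c01 + A 0 1 * tB)).resolve_right hd
    have e10 : B 1 0 = 0 := by
      apply (mul_eq_zero.1 (show B 1 0 * (A 0 0 - A 1 1) = 0 by
        linear_combination -c10 + A 1 0 * tB)).resolve_right hd
    have e00 : B 0 0 = 1 := by
      rw [e01] at b00
      have h1 : (B 0 0 - 1) * (B 0 0 - 1) = 0 := by linear_combination b00 + (1 - B 0 0) * h2
      exact sub_eq_zero.1 (mul_self_eq_zero.1 h1)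
    apply hB1
    ext i j
    fin_cases i <;> fin_cases j
    · exact e00
    · exact e01
    · exact e10
    · show B 1 1 = 1
      rw [← tB, e00]
  ext i j
  fin_cases i <;> fin_cases j
  · show (A * A) 0 0 = 1
    rw [m]; linear_combination dA + A 0 0 * tA + A 0 1 * A 1 0 * h2
  · show (A * A) 0 1 = 0
    rw [m]; linear_combination -A 0 1 * tA + A 0 0 * A 0 1 * h2
  · show (A * A) 1 0 = 0
    rw [m]; linear_combination -A 1 0 * tA + A 0 0 * A 1 0 * h2
  · show (A * A) 1 1 = 1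
    rw [m]; linear_combination dA - A 1 1 * tA + A 0 1 * A 1 0 * h2

/-- In `PSL₂(2ⁿ)` elements of even order are involutions. -/
theorem psl2_even_order {F : Type*} [Field F] [Finite F] [CharP F 2]
    {g : Matrix.ProjectiveSpecialLinearGroup (Fin 2) F} (hg : 2 ∣ orderOf g) : g * g = 1 := by
  have hcen : Subgroup.center (Matrix.SpecialLinearGroup (Fin 2) F) = ⊥ := by
    rw [eq_bot_iff]
    intro A hA
    have h2 : (2 : F) = 0 := by exact_mod_cast CharP.cast_eq_zero F 2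
    rcases H41.mem_center_sl2.1 hA with h | h
    · exact h
    · rw [Subgroup.mem_bot, h]
      ext i j
      fin_cases i <;> fin_cases j
      · show -(1 : F) = 1; linear_combination -h2
      · show -(0 : F) = 0; ring
      · show -(0 : F) = 0; ring
      · show -(1 : F) = 1; linear_combination -h2
  obtain ⟨A, rfl⟩ := QuotientGroup.mk_surjective g
  have hinj : ∀ X : Matrix.SpecialLinearGroup (Fin 2) F,
      (QuotientGroup.mk X : Matrix.ProjectiveSpecialLinearGroup (Fin 2) F) = 1 → X = 1 := by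
    intro X hX
    have := (QuotientGroup.eq_one_iff X).1 hX
    rwa [hcen, Subgroup.mem_bot] at this
  obtain ⟨m, hm⟩ := hg
  set g : Matrix.ProjectiveSpecialLinearGroup (Fin 2) F := QuotientGroup.mk A with hgd
  have hpos : 0 < orderOf g := orderOf_pos g
  have hm0 : 0 < m := by
    rcases Nat.eq_zero_or_pos m with h | h
    · rw [h] at hm; omega
    · exact h
  have h1 : g ^ m * g ^ m = 1 := by
    rw [← pow_add, ← two_mul, ← hm, pow_orderOf_eq_one]
  have h2 : g ^ m ≠ 1 := by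
    intro h
    have := Nat.le_of_dvd hm0 (orderOf_dvd_of_pow_eq_one h)
    omega
  have h3 : A ^ m * A ^ m = 1 := hinj _ h1
  have h4 : A ^ m ≠ 1 := fun h => h2 (by
    show (QuotientGroup.mk (A ^ m) : Matrix.ProjectiveSpecialLinearGroup (Fin 2) F) = 1
    rw [h]; rfl)
  have h5 := sl2_sq (A := A) (B := A ^ m) (by rw [← pow_succ, ← pow_succ']) h3 h4
  show (QuotientGroup.mk (A * A) : Matrix.ProjectiveSpecialLinearGroup (Fin 2) F) = 1
  rw [h5]; rfl

end Cfsg.Agent.H93.F5
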