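import Cfsg.Agent.H93.F5.SE
import Cfsg.Agent.H93.F5.Ord
import Cfsg.Agent.H93.F5.Out
import Cfsg.Agent.H17.Basic
import Cfsg.Agent.H4.CardSL
import Cfsg.Agent.StrEmb.Basic
import Cfsg.Agent.CIT.Local
import Cfsg.Agent.S0252
import Cfsg.Agent.S0253
import Cfsg.Agent.S0254
import Cfsg.Agent.CharBase.Column
import Mathlib.GroupTheory.GroupAction.Quotient

/-!
# At most five orbits: the groups in which the centralizers of involutions are `2`-groups
-/

set_option autoImplicit false
set_option linter.unusedSectionVars false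
set_option linter.style.haveILetI false

universe u

namespace Cfsg.Agent.H93.F5

open Cfsg Cfsg.Agent

theorem orderOf_smul {G : Type*} [Group G] (f : MulAut G) (x : G) : orderOf (f • x) = orderOf x :=
  MulEquiv.orderOf_eq f x

/-- the orders of elements are separated by the orbits -/
theorem card_orders {G : Type*} [Group G] [Finite G]
    (h5 : Nat.card (MulAction.orbitRel.Quotient (MulAut G) G) ≤ 5) (S : Finset ℕ)
    (hS : ∀ d ∈ S, ∃ x : G, orderOf x = d) : S.card ≤ 5 := by
  classical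
  choose! f hf using hS
  refine le_trans ?_ h5
  have h1 : Nat.card S ≤ Nat.card (MulAction.orbitRel.Quotient (MulAut G) G) := by
    refine Nat.card_le_card_of_injective
      (fun d : S => (Quotient.mk'' (f d) : MulAction.orbitRel.Quotient (MulAut G) G)) ?_
    intro d e hde
    have h2 : (MulAction.orbitRel (MulAut G) G).r (f d) (f e) := Quotient.exact hde
    obtain ⟨g, hg⟩ := (MulAction.orbitRel_apply).1 h2
    apply Subtype.ext
    rw [← hf d d.2, ← hf e e.2, ← hg]
    exact orderOf_smul g _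
  rwa [Nat.card_eq_fintype_card, Fintype.card_coe] at h1

/-- a third prime -/
theorem third_prime {G : Type u} [Group G] [Finite G] [IsSimpleGroup G] (hna : ¬ IsMulCommutative G)
    {a b : ℕ} (ha : a.Prime) (hb : b.Prime) : ∃ r : ℕ, r.Prime ∧ r ∣ Nat.card G ∧ r ≠ a ∧ r ≠ b := by
  by_contra hcon
  push Not at hcon
  obtain ⟨i, j, hij⟩ := eq_pow_mul_pow (a := a) (b := b) (Nat.card G) Nat.card_pos.ne'
    (fun r hr hd => by
      by_contra h
      push Not at h
      exact h.2 (hcon r hr hd h.1))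
  have hs := Cfsg.Agent.S0144.result a b i j ha hb hij
  apply hna
  haveI := hs
  exact IsMulCommutative.of_comm (fun x y => (IsSimpleGroup.comm_iff_isSolvable (G := G)).2 hs x y)

/-- orders of elements transported along an isomorphism -/
theorem orders_of_equiv {G H : Type*} [Group G] [Group H] (f : G ≃* H) {S : Finset ℕ}
    (hS : ∀ d ∈ S, ∃ x : H, orderOf x = d) : ∀ d ∈ S, ∃ x : G, orderOf x = d := by
  intro d hd
  obtain ⟨x, hx⟩ := hS d hd
  exact ⟨f.symm x, by rw [MulEquiv.orderOf_eq]; exact hx⟩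

/-- `|PSL₂(q)|` up to the factor `gcd(2, q-1)` -/
theorem card_psl2 {F : Type} [Field F] [Fintype F] :
    Nat.gcd 2 (Fintype.card F - 1) * Nat.card (Matrix.ProjectiveSpecialLinearGroup (Fin 2) F) =
      Fintype.card F * ((Fintype.card F - 1) * (Fintype.card F + 1)) := by
  have hF : 2 ≤ Fintype.card F := Fintype.one_lt_card
  have h : Nat.gcd 2 (Fintype.card F - 1) * ((Fintype.card F - 1) * Nat.card (Matrix.ProjectiveSpecialLinearGroup (Fin 2) F)) =
      ∏ i : Fin 2, ((Fintype.card F) ^ 2 - (Fintype.card F) ^ (i : ℕ)) := by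
    rw [← Matrix.card_GL_field, ← Cfsg.Agent.H4.card_SL_mul 2 (by omega),
      ← Cfsg.Agent.H4.card_PSL_mul 2 (by omega)]
    ring
  rw [Fin.prod_univ_two] at h
  simp only [Fin.val_zero, pow_zero, Fin.val_one, pow_one] at h
  obtain ⟨r, hr⟩ : ∃ r, Fintype.card F = r + 1 := ⟨Fintype.card F - 1, by omega⟩
  rw [hr] at h ⊢
  have h3 : (r + 1) ^ 2 - 1 = r * (r + 2) := by
    have : (r + 1) ^ 2 = r * (r + 2) + 1 := by ring
    omega
  have h4 : (r + 1) ^ 2 - (r + 1) = r * (r + 1) := by
    have : (r + 1) ^ 2 = r * (r + 1) + (r + 1) := by ring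
    omega
  rw [h3, h4] at h
  simp only [Nat.add_sub_cancel] at h ⊢
  have hr0 : 0 < r := by omega
  apply Nat.eq_of_mul_eq_mul_left hr0
  calc r * (Nat.gcd 2 r * Nat.card (Matrix.ProjectiveSpecialLinearGroup (Fin 2) F))
      = Nat.gcd 2 r * (r * Nat.card (Matrix.ProjectiveSpecialLinearGroup (Fin 2) F)) := by ring
    _ = _ := by rw [h]; ring

theorem exists_order_char {F : Type} [Field F] [Fintype F] (h : (Fintype.card F).Prime) :
    ∃ x : Matrix.ProjectiveSpecialLinearGroup (Fin 2) F, orderOf x = Fintype.card F := by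
  haveI := Fact.mk h
  apply exists_prime_orderOf_dvd_card'
  have h1 := card_psl2 (F := F)
  have h2 : Fintype.card F ∣ Nat.gcd 2 (Fintype.card F - 1) *
      Nat.card (Matrix.ProjectiveSpecialLinearGroup (Fin 2) F) := by rw [h1]; exact Dvd.intro _ rfl
  rcases h.dvd_or_dvd h2 with h3 | h3
  · exfalso
    have h4 := Nat.le_of_dvd (by have := h.two_le; omega) (h3.trans (Nat.gcd_dvd_right 2 (Fintype.card F - 1)))
    have := h.two_le
    omega
  · exact h3

theorem card_psl34 {F : Type} [Field F] [Fintype F] (hF : Fintype.card F = 4) :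
    Nat.card (Matrix.ProjectiveSpecialLinearGroup (Fin 3) F) = 20160 := by
  have h : Nat.gcd 3 (4 - 1) * ((4 - 1) * Nat.card (Matrix.ProjectiveSpecialLinearGroup (Fin 3) F)) =
      ∏ i : Fin 3, (4 ^ 3 - 4 ^ (i : ℕ)) := by
    rw [← hF, ← Matrix.card_GL_field, ← Cfsg.Agent.H4.card_SL_mul 3 (by omega),
      ← Cfsg.Agent.H4.card_PSL_mul 3 (by omega)]
    ring
  rw [Fin.prod_univ_three] at h
  have e : (4 ^ 3 - 4 ^ ((0 : Fin 3) : ℕ)) * (4 ^ 3 - 4 ^ ((1 : Fin 3) : ℕ)) * (4 ^ 3 - 4 ^ ((2 : Fin 3) : ℕ)) = 181440 := by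
    decide
  rw [e] at h
  have e2 : Nat.gcd 3 (4 - 1) = 3 := by decide
  rw [e2] at h
  omega

theorem psl34_four {F : Type} [Field F] [Fintype F] (hF : Fintype.card F = 4) :
    ∃ x : Matrix.ProjectiveSpecialLinearGroup (Fin 3) F, orderOf x = 4 := by
  haveI := Fact.mk Nat.prime_two
  haveI : CharP F 2 := charP_of_card_eq_prime_pow (p := 2) (f := 2) (by rw [hF]; norm_num)
  have h2 : (2 : F) = 0 := by exact_mod_cast CharP.cast_eq_zero F 2
  let M : Matrix.SpecialLinearGroup (Fin 3) F := ⟨!![1, 1, 0; 0, 1, 1; 0, 0, 1], by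
    rw [Matrix.det_fin_three]; simp⟩
  have hM2 : ((M * M : Matrix.SpecialLinearGroup (Fin 3) F) : Matrix (Fin 3) (Fin 3) F) =
      !![1, 0, 1; 0, 1, 0; 0, 0, 1] := by
    rw [Matrix.SpecialLinearGroup.coe_mul]
    show (!![1, 1, 0; 0, 1, 1; 0, 0, 1] : Matrix (Fin 3) (Fin 3) F) * !![1, 1, 0; 0, 1, 1; 0, 0, 1] = _
    ext i j
    fin_cases i <;> fin_cases j <;> simp [Matrix.mul_apply, Fin.sum_univ_three] <;>
      linear_combination h2
  refine ⟨QuotientGroup.mk M, ?_⟩
  have h4 : orderOf (QuotientGroup.mk M : Matrix.ProjectiveSpecialLinearGroup (Fin 3) F) = 2 ^ (1 + 1) := by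
    apply orderOf_eq_prime_pow
    · rw [pow_one, pow_two]
      intro h
      have h3 : (QuotientGroup.mk (M * M) : Matrix.ProjectiveSpecialLinearGroup (Fin 3) F) = 1 := h
      have h5 := (QuotientGroup.eq_one_iff (M * M)).1 h3
      obtain ⟨r, -, hr⟩ := (Matrix.SpecialLinearGroup.mem_center_iff).1 h5
      have h6 := congrFun (congrFun hr 0) 2
      rw [hM2] at h6
      simp at h6
    · show (QuotientGroup.mk (M ^ 2 ^ (1 + 1)) : Matrix.ProjectiveSpecialLinearGroup (Fin 3) F) = 1
      have h5 : M ^ 2 ^ (1 + 1) = 1 := by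
        have h6 : M ^ 2 ^ (1 + 1) = (M * M) * (M * M) := by
          rw [show (2 : ℕ) ^ (1 + 1) = 4 by norm_num]
          simp only [pow_succ, pow_zero, one_mul, mul_assoc]
        rw [h6]
        apply Subtype.ext
        rw [Matrix.SpecialLinearGroup.coe_mul, hM2]
        show _ = (1 : Matrix (Fin 3) (Fin 3) F)
        ext i j
        fin_cases i <;> fin_cases j <;> simp [Matrix.mul_apply, Fin.sum_univ_three] <;>
          linear_combination h2
      rw [h5]; rfl
  rw [h4]; norm_num

/-- simple groups of Suzuki order with elementary abelian Sylow `2`-subgroups do not occur among the CIT groups -/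
theorem suzuki_cit_false {G : Type u} [Group G] [Finite G] [IsSimpleGroup G]
    (hna : ¬ IsMulCommutative G) (hCIT : CIT.IsCIT G) (hsz : Cfsg.IsSuzuki G)
    (hP2 : ∀ (P : Sylow 2 G), ∀ x ∈ P, x * x = 1) : False := by
  haveI : Fact (Nat.Prime 2) := ⟨Nat.prime_two⟩
  obtain ⟨-, m, hm, hc⟩ := hsz
  obtain ⟨P⟩ : Nonempty (Sylow 2 G) := inferInstance
  have hPP := hP2 P
  have hPc := sylow_comm hPP
  set q := 2 ^ (2 * m + 1) with hq
  have hq8 : 8 ≤ q := by
    calc 8 = 2 ^ 3 := by norm_num
      _ ≤ q := Nat.pow_le_pow_right (by norm_num) (by omega)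
  obtain ⟨e, he⟩ : Even q := (Nat.even_pow).2 ⟨even_two, by omega⟩
  have hPcard : Nat.card (P : Subgroup G) = q ^ 2 := by
    have h1 : Nat.card G = 2 ^ (2 * (2 * m + 1)) * ((q ^ 2 + 1) * (q - 1)) := by
      rw [hc, mul_assoc, hq, ← pow_mul, mul_comm (2 * m + 1) 2]
    have h2 : ¬ 2 ∣ (q ^ 2 + 1) * (q - 1) := by
      rw [← even_iff_two_dvd, Nat.not_even_iff_odd, Nat.odd_mul]
      refine ⟨?_, ⟨e - 1, by omega⟩⟩
      have : Even (q ^ 2) := (Nat.even_pow).2 ⟨⟨e, he⟩, by norm_num⟩
      exact this.add_one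
    rw [H17.card_sylow_eq P h1 h2, hq, ← pow_mul]
    congr 1; ring
  have hord : ∀ a ∈ P, a ≠ 1 → orderOf a = 2 := fun a ha ha1 =>
    orderOf_eq_prime (by rw [pow_two]; exact hPP a ha) ha1
  -- centralizers
  have hC : ∀ a ∈ P, a ≠ 1 → Subgroup.centralizer ({a} : Set G) = (P : Subgroup G) := by
    intro a ha ha1
    refine P.is_maximal' (hCIT a (hord a ha ha1)) ?_
    intro x hx
    rw [Subgroup.mem_centralizer_singleton_iff]
    exact hPc x hx a ha
  have hPne : (P : Subgroup G) ≠ ⊥ := by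
    intro h1
    rw [h1, Subgroup.card_bot] at hPcard
    nlinarith
  obtain ⟨M, hMdef⟩ : ∃ M, M = Subgroup.normalizer ((P : Subgroup G) : Set G) := ⟨_, rfl⟩
  have hM : M ≠ ⊤ := by
    rw [hMdef]
    apply H17.normalizer_ne_top hna (hp := ?_) P
    rw [hc]
    exact Dvd.dvd.mul_right (Dvd.dvd.mul_right (dvd_pow (dvd_pow_self 2 (by omega)) (by norm_num)) _) _
  have hPM : (P : Subgroup G) ≤ M := by rw [hMdef]; exact Subgroup.le_normalizer
  have hSE : Cfsg.IsStronglyEmbedded M := by
    refine (H80.stronglyEmbedded_iff_normalizer hM (P.subtype hPM) ?_).2 ?_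
    · intro h1
      apply hPne
      rw [Sylow.coe_subtype, Subgroup.subgroupOf_eq_bot] at h1
      exact (disjoint_iff.1 h1) ▸ (inf_eq_left.2 hPM).symm
    · intro X hX hX1
      have hXP : X.map M.subtype ≤ (P : Subgroup G) := by
        rintro _ ⟨x, hx, rfl⟩
        exact hX hx
      obtain ⟨b, hb1⟩ := Subgroup.ne_bot_iff_exists_ne_one.mp hX1
      have hbX : ((b : M) : G) ∈ X.map M.subtype := ⟨b, b.2, rfl⟩
      have hb1' : ((b : M) : G) ≠ 1 := fun h => hb1 (Subtype.ext (Subtype.ext h))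
      refine (H79.SigRed.norm_le P hPc hXP hbX).trans (sup_le ?_ hMdef.ge)
      rw [hC _ (hXP hbX) hb1']
      exact hPM
  -- all involutions of `P` are conjugate in `M`
  obtain ⟨t, ht1⟩ := Subgroup.ne_bot_iff_exists_ne_one.mp hPne
  have ht1' : (t : G) ≠ 1 := fun h => ht1 (Subtype.ext h)
  have hPle : (P : Subgroup G) ≤ Subgroup.centralizer ((P : Subgroup G) : Set G) := by
    intro y hy
    rw [Subgroup.mem_centralizer_iff]
    intro z hz
    exact hPc z hz y hy
  have hconj : ∀ b ∈ P, b ≠ 1 → ∃ n ∈ M, b = n * t * n⁻¹ := by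
    intro b hb hb1
    obtain ⟨g, hg⟩ := isConj_iff.1 (StrEmb.isConj hSE (hord t t.2 ht1') (hord b hb hb1))
    have h1 : (g⁻¹)⁻¹ * (t : G) * g⁻¹ = b := by rw [inv_inv]; exact hg
    obtain ⟨n, hn, hn2⟩ := Sylow.conj_eq_normalizer_conj_of_mem_centralizer P (t : G) g⁻¹
      (hPle t.2) (by rw [h1]; exact hPle hb)
    refine ⟨n⁻¹, ?_, ?_⟩
    · rw [hMdef]; exact inv_mem hn
    · rw [inv_inv, ← hn2, h1]
  -- counting
  set t' : M := ⟨t, hPM t.2⟩ with ht'
  have h1 := CharBase.card_isConj_mul_card_centralizer (G := M) t'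
  have h2 : Nat.card {x : M // IsConj t' x} + 1 = Nat.card (P : Subgroup G) := by
    have e1 : {x : M // IsConj t' x} ≃ {x : (P : Subgroup G) // x ≠ 1} :=
      { toFun := fun x => ⟨⟨(x : M), by
          obtain ⟨c, hc⟩ := isConj_iff.1 x.2
          rw [← hc]
          have h3 : (c : G) ∈ Subgroup.normalizer ((P : Subgroup G) : Set G) := hMdef ▸ c.2
          exact (Subgroup.mem_normalizer_iff.1 h3 (t : G)).1 t.2⟩, by
          intro h
          obtain ⟨c, hc⟩ := isConj_iff.1 x.2
          have h3 : ((x : M) : G) = 1 := congrArg Subtype.val h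
          have h4 : (x : M) = 1 := Subtype.ext h3
          rw [h4, conj_eq_one_iff] at hc
          exact ht1' (congrArg Subtype.val hc)⟩
        invFun := fun x => ⟨⟨(x : (P : Subgroup G)), hPM (x : (P : Subgroup G)).2⟩, by
          obtain ⟨n, hn, hn2⟩ := hconj _ (x : (P : Subgroup G)).2 (fun h => x.2 (Subtype.ext h))
          exact isConj_iff.2 ⟨⟨n, hn⟩, Subtype.ext hn2.symm⟩⟩
        left_inv := fun x => rfl
        right_inv := fun x => rfl }
    rw [Nat.card_congr e1]
    haveI := Fintype.ofFinite (P : Subgroup G)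
    classical
    have e3 := Fintype.card_subtype_compl (fun x : (P : Subgroup G) => x = 1)
    rw [Fintype.card_subtype_eq] at e3
    have e4 : 0 < Fintype.card (P : Subgroup G) := Fintype.card_pos
    have e5 : Nat.card {x : (P : Subgroup G) // x ≠ 1} = Fintype.card (P : Subgroup G) - 1 := by
      rw [← e3, Nat.card_eq_fintype_card]
    rw [e5, Nat.card_eq_fintype_card]
    omega
  have h3 : (q ^ 2 - 1) ∣ Nat.card G := by
    have h4 : Nat.card {x : M // IsConj t' x} = q ^ 2 - 1 := by omega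
    rw [h4] at h1
    exact (Dvd.intro _ h1).trans (Subgroup.card_subgroup_dvd_card M)
  rw [hc] at h3
  obtain ⟨r, hr⟩ : ∃ r, q = r + 1 := ⟨q - 1, by omega⟩
  rw [hr] at h3 hq8 he
  have h5 : (r + 1) ^ 2 - 1 = (r + 2) * r := by
    have : (r + 1) ^ 2 = (r + 2) * r + 1 := by ring
    omega
  rw [h5, Nat.add_sub_cancel] at h3
  have h6 : r + 2 ∣ (r + 1) ^ 2 * ((r + 1) ^ 2 + 1) := Nat.dvd_of_mul_dvd_mul_right (by omega) h3
  have h7 : Nat.Coprime (r + 2) ((r + 1) ^ 2) := by
    apply Nat.Coprime.pow_right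
    have : r + 2 = 1 + (r + 1) := by ring
    rw [this, Nat.coprime_add_self_left]
    exact Nat.coprime_one_left _
  have h8 := h7.dvd_of_dvd_mul_left h6
  have h9 : (r + 1) ^ 2 + 1 = (r + 2) * r + 2 := by ring
  rw [h9] at h8
  have h10 := (Nat.dvd_add_right (Dvd.intro r rfl)).1 h8
  have := Nat.le_of_dvd (by norm_num) h10
  omega

/-- the conclusion -/
def Concl (G : Type u) [Group G] : Prop :=
  Nonempty (G ≃* ↥(alternatingGroup (Fin 5))) ∨ Nonempty (G ≃* ↥(alternatingGroup (Fin 6))) ∨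
      (∃ (F : Type) (_ : Field F) (_ : Fintype F), (Fintype.card F = 7 ∨ Fintype.card F = 8) ∧
        Nonempty (G ≃* Matrix.ProjectiveSpecialLinearGroup (Fin 2) F))

theorem small_false {G : Type u} [Group G] [Finite G] [IsSimpleGroup G]
    (hna : ¬ IsMulCommutative G) (h : ∀ r : ℕ, r.Prime → r ∣ Nat.card G → r = 2 ∨ r = 3) : False := by
  obtain ⟨r, hr, hd, h2, h3⟩ := third_prime hna Nat.prime_two Nat.prime_three
  rcases h r hr hd with e | e
  · exact h2 e
  · exact h3 e

theorem even_false_of_three {G : Type u} [Group G] [Finite G] {p q r : ℕ} (hp : p.Prime) (hq : q.Prime)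
    (hr : r.Prime) (hp2 : p ≠ 2) (hq2 : q ≠ 2) (hr2 : r ≠ 2) (hpq : p ≠ q) (hpr : p ≠ r) (hqr : q ≠ r)
    (h2 : 2 ∣ Nat.card G) (dp : p ∣ Nat.card G) (dq : q ∣ Nat.card G) (dr : r ∣ Nat.card G)
    (h5 : Nat.card (MulAction.orbitRel.Quotient (MulAut G) G) ≤ 5) (x : G) :
    orderOf x = 1 ∨ orderOf x = 2 ∨ orderOf x = p ∨ orderOf x = q ∨ orderOf x = r := by
  by_contra hcon
  push Not at hcon
  obtain ⟨n1, n2, n3, n4, n5⟩ := hcon
  have := hp.one_lt
  have := hq.one_lt
  have := hr.one_lt
  have hS := card_orders h5 {1, 2, p, q, r, orderOf x} (by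
    intro d hd
    simp only [Finset.mem_insert, Finset.mem_singleton] at hd
    rcases hd with rfl | rfl | rfl | rfl | rfl | rfl
    · exact ⟨1, orderOf_one⟩
    · haveI := Fact.mk Nat.prime_two; exact exists_prime_orderOf_dvd_card' 2 h2
    · haveI := Fact.mk hp; exact exists_prime_orderOf_dvd_card' _ dp
    · haveI := Fact.mk hq; exact exists_prime_orderOf_dvd_card' _ dq
    · haveI := Fact.mk hr; exact exists_prime_orderOf_dvd_card' _ dr
    · exact ⟨x, rfl⟩)
  rw [Finset.card_insert_of_notMem, Finset.card_insert_of_notMem, Finset.card_insert_of_notMem,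
    Finset.card_insert_of_notMem, Finset.card_insert_of_notMem, Finset.card_singleton] at hS
  · omega
  all_goals simp only [Finset.mem_insert, Finset.mem_singleton, not_or]
  all_goals omega

/-- the list of CIT groups, as in S0348 -/
def CitList (G : Type u) [Group G] : Prop :=
  (∃ (F : Type) (_ : Field F) (_ : Fintype F),
        (Fintype.card F = 9 ∨ (∃ n : ℕ, Fintype.card F = 2 ^ n) ∨
          ((Fintype.card F).Prime ∧ ∃ k : ℕ, Fintype.card F = 2 ^ k + 1 ∨ Fintype.card F + 1 = 2 ^ k)) ∧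
        Nonempty (G ≃* Matrix.ProjectiveSpecialLinearGroup (Fin 2) F)) ∨
    (∃ (F : Type) (_ : Field F) (_ : Fintype F), Fintype.card F = 4 ∧
        Nonempty (G ≃* Matrix.ProjectiveSpecialLinearGroup (Fin 3) F)) ∨
    Cfsg.IsSuzuki G

theorem cit_case {G : Type u} [Group G] [Finite G] [IsSimpleGroup G] (hna : ¬ IsMulCommutative G)
    (hCIT : CIT.IsCIT G) (h2 : 2 ∣ Nat.card G) (hL : CitList G)
    (h5 : Nat.card (MulAction.orbitRel.Quotient (MulAut G) G) ≤ 5) : Concl G := by
  haveI : Fact (Nat.Prime 2) := ⟨Nat.prime_two⟩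
  rcases hL with ⟨F, i1, i2, hF, ⟨f⟩⟩ | ⟨F, i1, i2, hF, ⟨f⟩⟩ | hsz
  · have six : (∃ S : Finset ℕ, S.card = 6 ∧ ∀ d ∈ S,
        ∃ x : Matrix.ProjectiveSpecialLinearGroup (Fin 2) F, orderOf x = d) → Concl G := by
      rintro ⟨S, hS, hd⟩
      have h1 := card_orders h5 S (orders_of_equiv f hd)
      omega
    have hcG : Nat.gcd 2 (Fintype.card F - 1) * Nat.card G =
        Fintype.card F * ((Fintype.card F - 1) * (Fintype.card F + 1)) := by
      rw [Nat.card_congr f.toEquiv]; exact card_psl2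
    have small : ∀ n, n ∣ 24 → Nat.card G ∣ n → Concl G := by
      intro n hn hd
      exfalso
      apply small_false hna
      intro r hr hrd
      have h1 : r ∣ 24 := (hrd.trans hd).trans hn
      have h3 : r ∣ 2 ^ 3 * 3 ^ 1 := by norm_num; exact h1
      rcases hr.dvd_or_dvd h3 with h4 | h4
      · exact Or.inl ((Nat.prime_dvd_prime_iff_eq hr Nat.prime_two).1 (hr.dvd_of_dvd_pow h4))
      · exact Or.inr ((Nat.prime_dvd_prime_iff_eq hr Nat.prime_three).1 (hr.dvd_of_dvd_pow h4))
    rcases hF with hF | ⟨n, hF⟩ | ⟨hF, k, hk⟩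
    · obtain ⟨g⟩ := Cfsg.Agent.S0254.result hF
      exact Or.inr (Or.inl ⟨f.trans g⟩)
    · rcases Nat.lt_or_ge n 4 with hn | hn
      · interval_cases n
        · have := Fintype.one_lt_card (α := F)
          rw [hF] at this
          norm_num at this
        · rw [hF] at hcG
          apply small 6 (by norm_num)
          have : Nat.card G = 6 := by
            have e : Nat.gcd 2 (2 ^ 1 - 1) = 1 := by decide
            rw [e] at hcG
            omega
          rw [this]
        · obtain ⟨g⟩ := Cfsg.Agent.S0252.result (F := F) (by rw [hF]; norm_num)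
          exact Or.inl ⟨f.trans g⟩
        · exact Or.inr (Or.inr ⟨F, i1, i2, Or.inr (by rw [hF]; norm_num), ⟨f⟩⟩)
      · apply six
        apply psl2_even hn hF
        have h3 : 2 ∣ Nat.card (Matrix.ProjectiveSpecialLinearGroup (Fin 2) F) := by
          rw [← Nat.card_congr f.toEquiv]; exact h2
        exact exists_prime_orderOf_dvd_card' 2 h3
    · rcases Nat.lt_or_ge k 4 with hk4 | hk4
      · have hF2 := hF.two_le
        have h23 : Fintype.card F = 2 ∨ Fintype.card F = 3 ∨ Fintype.card F = 5 ∨ Fintype.card F = 7 := by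
          interval_cases k
          · rcases hk with hk | hk
            · left; rw [hk]; norm_num
            · exfalso; norm_num at hk
          · rcases hk with hk | hk
            · right; left; rw [hk]; norm_num
            · exfalso; norm_num at hk; omega
          · rcases hk with hk | hk
            · right; right; left; rw [hk]; norm_num
            · norm_num at hk; omega
          · rcases hk with hk | hk
            · exfalso
              rw [hk] at hF
              norm_num at hF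
            · norm_num at hk; omega
        rcases h23 with h | h | h | h
        · rw [h] at hcG
          apply small 6 (by norm_num)
          have : Nat.card G = 6 := by
            have e : Nat.gcd 2 (2 - 1) = 1 := by decide
            rw [e] at hcG
            omega
          rw [this]
        · rw [h] at hcG
          apply small 12 (by norm_num)
          have : Nat.card G = 12 := by
            have e : Nat.gcd 2 (3 - 1) = 2 := by decide
            rw [e] at hcG
            omega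
          rw [this]
        · obtain ⟨g⟩ := Cfsg.Agent.S0253.result h
          exact Or.inl ⟨f.trans g⟩
        · exact Or.inr (Or.inr ⟨F, i1, i2, Or.inl h, ⟨f⟩⟩)
      · apply six
        exact psl2_odd hk4 hk (exists_order_char hF)
  · exfalso
    have hc := card_psl34 hF
    have hcG : Nat.card G = 20160 := by rw [Nat.card_congr f.toEquiv, hc]
    have hS := card_orders h5 {1, 2, 3, 4, 5, 7} (by
      intro d hd
      simp only [Finset.mem_insert, Finset.mem_singleton] at hd
      rcases hd with rfl | rfl | rfl | rfl | rfl | rfl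
      · exact ⟨1, orderOf_one⟩
      · exact exists_prime_orderOf_dvd_card' 2 h2
      · haveI := Fact.mk Nat.prime_three
        exact exists_prime_orderOf_dvd_card' 3 (by rw [hcG]; norm_num)
      · obtain ⟨x, hx⟩ := psl34_four hF
        exact ⟨f.symm x, by rw [MulEquiv.orderOf_eq]; exact hx⟩
      · haveI := Fact.mk Nat.prime_five
        exact exists_prime_orderOf_dvd_card' 5 (by rw [hcG]; norm_num)
      · haveI : Fact (Nat.Prime 7) := ⟨by norm_num⟩
        exact exists_prime_orderOf_dvd_card' 7 (by rw [hcG]; norm_num))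
    revert hS
    decide
  · exfalso
    -- three odd primes
    have h3 : ∃ p q r : ℕ, p.Prime ∧ q.Prime ∧ r.Prime ∧ p ≠ 2 ∧ q ≠ 2 ∧ r ≠ 2 ∧ p ≠ q ∧ p ≠ r ∧ q ≠ r ∧
        p ∣ Nat.card G ∧ q ∣ Nat.card G ∧ r ∣ Nat.card G := by
      obtain ⟨p, hp, dp, hp2, -⟩ := third_prime hna Nat.prime_two Nat.prime_two
      obtain ⟨q, hq, dq, hq2, hqp⟩ := third_prime hna Nat.prime_two hp
      by_contra hcon
      apply suzuki_false (p := p) (q := q) (fun r hr hd => ?_) hsz
      by_contra h
      push Not at h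
      exact hcon ⟨p, q, r, hp, hq, hr, hp2, hq2, h.1, hqp.symm, h.2.1.symm, h.2.2.symm, dp, dq, hd⟩
    obtain ⟨p, q, r, hp, hq, hr, hp2, hq2, hr2, hpq, hpr, hqr, dp, dq, dr⟩ := h3
    have hall := even_false_of_three hp hq hr hp2 hq2 hr2 hpq hpr hqr h2 dp dq dr h5
    apply suzuki_cit_false hna hCIT hsz
    intro P x hx
    obtain ⟨k, hk⟩ := (IsPGroup.iff_orderOf.1 P.2) ⟨x, hx⟩
    rw [Subgroup.orderOf_mk] at hk
    have key : ∀ r : ℕ, r.Prime → r ≠ 2 → ¬ r ∣ 2 ^ k := fun r hr h2 hd =>
      h2 ((Nat.prime_dvd_prime_iff_eq hr Nat.prime_two).1 (hr.dvd_of_dvd_pow hd))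
    rcases hall x with h1 | h1 | h1 | h1 | h1
    · rw [orderOf_eq_one_iff.1 h1, mul_one]
    · rw [← pow_two, ← h1, pow_orderOf_eq_one]
    · exact absurd (by rw [← hk, h1]) (key p hp hp2)
    · exact absurd (by rw [← hk, h1]) (key q hq hq2)
    · exact absurd (by rw [← hk, h1]) (key r hr hr2)

end Cfsg.Agent.H93.F5
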