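import Cfsg.Agent.H74.Four
import Cfsg.Agent.H17.Basic
import Cfsg.Agent.H4.CharKer

/-!
# Simple groups with Klein four Sylow `2`-subgroups whose order has only three prime divisors
-/

set_option autoImplicit false
set_option linter.unusedSectionVars false
set_option linter.style.haveILetI false

universe u

namespace Cfsg.Agent.H93.F5

open scoped ComplexConjugate
open Cfsg Cfsg.Agent.CharBase Cfsg.Agent.Blk Cfsg.Agent.H4 Cfsg.Agent.H74

/-- the arithmetic behind the Klein four case -/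
theorem arith {p q : ℕ} (hp : p.Prime) (hq : q.Prime) {x y z x' y' z' : ℤ} (hx : x = 2 * x' - 1)
    (hy : y = 2 * y' - 1) (hz : z = 2 * z' - 1) (h1 : x' + y' + z' = 1)
    (hX : ∀ r : ℕ, r.Prime → (r : ℤ) ∣ x → r = p ∨ r = q)
    (hY : ∀ r : ℕ, r.Prime → (r : ℤ) ∣ y → r = p ∨ r = q)
    (hZ : ∀ r : ℕ, r.Prime → (r : ℤ) ∣ z → r = p ∨ r = q)
    (hX' : ∀ r : ℕ, r.Prime → (r : ℤ) ∣ x' → r = p ∨ r = q)
    (hY' : ∀ r : ℕ, r.Prime → (r : ℤ) ∣ y' → r = p ∨ r = q)
    (hZ' : ∀ r : ℕ, r.Prime → (r : ℤ) ∣ z' → r = p ∨ r = q)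
    (hx1 : x ≠ 1 ∧ x ≠ -1) (hy1 : y ≠ 1 ∧ y ≠ -1) (hz1 : z ≠ 1 ∧ z ≠ -1) :
    x = -3 ∨ y = -3 ∨ z = -3 := by
  have key : ∀ w w' : ℤ, w = 2 * w' - 1 → (w ≠ 1 ∧ w ≠ -1) → w ≠ -3 →
      (∀ r : ℕ, r.Prime → (r : ℤ) ∣ w → r = p ∨ r = q) →
      (∀ r : ℕ, r.Prime → (r : ℤ) ∣ w' → r = p ∨ r = q) →
      ((p : ℤ) ∣ w ∧ (q : ℤ) ∣ w') ∨ ((q : ℤ) ∣ w ∧ (p : ℤ) ∣ w') := by
    intro w w' hw hw1 hw3 h h'
    have hwa : w.natAbs ≠ 1 := by
      intro h; rcases Int.natAbs_eq w with h2 | h2 <;> omega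
    have hwa' : w'.natAbs ≠ 1 := by
      intro h; rcases Int.natAbs_eq w' with h2 | h2 <;> omega
    obtain ⟨r, hr, hrw⟩ := Nat.exists_prime_and_dvd hwa
    obtain ⟨s, hs, hsw⟩ := Nat.exists_prime_and_dvd hwa'
    have hrw' : (r : ℤ) ∣ w := Int.natCast_dvd.2 hrw
    have hsw' : (s : ℤ) ∣ w' := Int.natCast_dvd.2 hsw
    have hrs : r ≠ s := by
      rintro rfl
      have h2 : (r : ℤ) ∣ 1 := by
        have : (1 : ℤ) = 2 * w' - w := by rw [hw]; ring
        rw [this]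
        exact dvd_sub (Dvd.dvd.mul_left hsw' 2) hrw'
      have h3 : r ∣ 1 := by exact_mod_cast h2
      exact hr.one_lt.ne' (Nat.dvd_one.1 h3)
    rcases h r hr hrw' with e1 | e1 <;> rcases h' s hs hsw' with e2 | e2
    · exact absurd (e1.trans e2.symm) hrs
    · left; rw [← e1, ← e2]; exact ⟨hrw', hsw'⟩
    · right; rw [← e1, ← e2]; exact ⟨hrw', hsw'⟩
    · exact absurd (e1.trans e2.symm) hrs
  by_contra hcon
  push Not at hcon
  obtain ⟨n1, n2, n3⟩ := hcon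
  have k1 := key x x' hx hx1 n1 hX hX'
  have k2 := key y y' hy hy1 n2 hY hY'
  have k3 := key z z' hz hz1 n3 hZ hZ'
  -- three of the same kind
  have all : ∀ r : ℕ, r.Prime → (r : ℤ) ∣ x → (r : ℤ) ∣ y → (r : ℤ) ∣ z → False := by
    intro r hr ha hb hc
    have h2 : (r : ℤ) ∣ 1 := by
      have : (1 : ℤ) = -(x + y + z) := by rw [hx, hy, hz]; linarith
      rw [this]
      exact (dvd_neg).2 (dvd_add (dvd_add ha hb) hc)
    have h3 : r ∣ 1 := by exact_mod_cast h2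
    exact hr.one_lt.ne' (Nat.dvd_one.1 h3)
  have two : ∀ r : ℕ, r.Prime → ∀ w u' v' : ℤ, w = 1 - 2 * (u' + v') → (r : ℤ) ∣ w →
      (r : ℤ) ∣ u' → (r : ℤ) ∣ v' → False := by
    intro r hr w u' v' hw ha hb hc
    have h2 : (r : ℤ) ∣ 1 := by
      have : (1 : ℤ) = w + 2 * (u' + v') := by rw [hw]; ring
      rw [this]
      exact dvd_add ha (Dvd.dvd.mul_left (dvd_add hb hc) 2)
    have h3 : r ∣ 1 := by exact_mod_cast h2
    exact hr.one_lt.ne' (Nat.dvd_one.1 h3)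
  have ez : z = 1 - 2 * (x' + y') := by rw [hz]; linarith
  have ey : y = 1 - 2 * (x' + z') := by rw [hy]; linarith
  have ex : x = 1 - 2 * (y' + z') := by rw [hx]; linarith
  rcases k1 with ⟨a1, a2⟩ | ⟨a1, a2⟩ <;> rcases k2 with ⟨b1, b2⟩ | ⟨b1, b2⟩ <;>
    rcases k3 with ⟨c1, c2⟩ | ⟨c1, c2⟩
  · exact all p hp a1 b1 c1
  · exact two q hq z x' y' ez c1 a2 b2
  · exact two q hq y x' z' ey b1 a2 c2
  · exact two p hp x y' z' ex a1 b2 c2
  · exact two q hq x y' z' ex a1 b2 c2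
  · exact two p hp y x' z' ey b1 a2 c2
  · exact two p hp z x' y' ez c1 a2 b2
  · exact all q hq a1 b1 c1

/-- A three-dimensional character of a perfect group with value `-1` at `g` and `g⁻¹` has value `3` at `g²`. -/
theorem value_sq {G : Type u} [Group G] [Finite G] (hperf : ∀ f : G →* ℂˣ, f = 1) {χ : G → ℂ}
    (hχ : IsCharacter G χ) (h3 : χ 1 = 3) {g : G} (hg : χ g = -1) (hg' : χ g⁻¹ = -1) :
    χ (g * g) = 3 := by
  obtain ⟨n, ρ, rfl⟩ := hχ
  have hn : n = 3 := by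
    have h1 : ρ.character 1 = n := by
      rw [Representation.character, map_one]
      simp
    rw [h1] at h3
    exact_mod_cast h3
  subst hn
  -- matrices
  let R : G →* Matrix (Fin 3) (Fin 3) ℂ :=
    { toFun := fun g => LinearMap.toMatrix' (ρ g)
      map_one' := by rw [map_one]; exact LinearMap.toMatrix'_one
      map_mul' := fun a b => by rw [map_mul]; exact LinearMap.toMatrix'_mul _ _ }
  have htr : ∀ g, ρ.character g = (R g).trace := by
    intro g
    exact LinearMap.trace_eq_matrix_trace ℂ (Pi.basisFun ℂ (Fin 3)) (ρ g)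
  have hdet : ∀ g, (R g).det = 1 := by
    intro g
    let f : G →* ℂˣ := (Matrix.detMonoidHom.comp R).toHomUnits
    have h1 := hperf f
    have h2 : ((f g : ℂˣ) : ℂ) = (R g).det := rfl
    rw [← h2, h1]
    rfl
  rw [htr] at hg hg' ⊢
  have hinv : R g * R g⁻¹ = 1 := by rw [← map_mul, mul_inv_cancel, map_one]
  have hadj : (R g).adjugate = R g⁻¹ := by
    have h1 : (R g).adjugate * (R g) = 1 := by rw [Matrix.adjugate_mul, hdet, one_smul]
    calc (R g).adjugate = (R g).adjugate * (R g * R g⁻¹) := by rw [hinv, mul_one]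
      _ = R g⁻¹ := by rw [← mul_assoc, h1, one_mul]
  have hform : ∀ A : Matrix (Fin 3) (Fin 3) ℂ, (A * A).trace = A.trace ^ 2 - 2 * A.adjugate.trace := by
    intro A
    rw [Matrix.adjugate_fin_three]
    simp only [Matrix.trace, Matrix.diag_apply, Fin.sum_univ_three, Matrix.mul_apply]
    simp
    ring
  rw [map_mul, hform, hadj, hg, hg']
  norm_num

/-- A linear character of a perfect group is trivial. -/
theorem eq_one_of_degree {G : Type u} [Group G] [Finite G] (hperf : ∀ f : G →* ℂˣ, f = 1) {χ : G → ℂ}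
    (hχ : IsCharacter G χ) (h1 : χ 1 = 1) : χ = fun _ => 1 := by
  obtain ⟨n, ρ, rfl⟩ := hχ
  have hn : n = 1 := by
    have h2 : ρ.character 1 = n := by
      rw [Representation.character, map_one]
      simp
    rw [h2] at h1
    exact_mod_cast h1
  subst hn
  let R : G →* Matrix (Fin 1) (Fin 1) ℂ :=
    { toFun := fun g => LinearMap.toMatrix' (ρ g)
      map_one' := by rw [map_one]; exact LinearMap.toMatrix'_one
      map_mul' := fun a b => by rw [map_mul]; exact LinearMap.toMatrix'_mul _ _ }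
  have htr : ∀ g, ρ.character g = (R g).trace := by
    intro g
    exact LinearMap.trace_eq_matrix_trace ℂ (Pi.basisFun ℂ (Fin 1)) (ρ g)
  have hdet : ∀ g, (R g).det = 1 := by
    intro g
    let f : G →* ℂˣ := (Matrix.detMonoidHom.comp R).toHomUnits
    have h1 := hperf f
    have h2 : ((f g : ℂˣ) : ℂ) = (R g).det := rfl
    rw [← h2, h1]
    rfl
  have hd : ∀ A : Matrix (Fin 1) (Fin 1) ℂ, A.trace = A.det := fun A => by
    rw [Matrix.trace_fin_one, Matrix.det_fin_one]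
  funext g
  rw [htr, hd, hdet]

theorem perf_of_simple {G : Type u} [Group G] [Finite G] [IsSimpleGroup G]
    (hna : ¬ IsMulCommutative G) (f : G →* ℂˣ) : f = 1 := by
  ext g
  rw [Cfsg.Agent.H17.hom_trivial_of_perfect (Cfsg.Agent.H17.commutator_eq_top hna) f g]
  rfl

theorem klein_false {G : Type u} [Group G] [Finite G] [IsSimpleGroup G] (hna : ¬ IsMulCommutative G)
    {p q : ℕ} (hp : p.Prime) (hq : q.Prime)
    (hpi : ∀ r : ℕ, r.Prime → r ∣ Nat.card G → r = 2 ∨ r = p ∨ r = q) (P : Sylow 2 G)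
    (hP : Nat.card P = 4) {g : G} (hg : 2 ∣ orderOf g) (hg2 : 2 < orderOf g) : False := by
  haveI : Fact (Nat.Prime 2) := ⟨Nat.prime_two⟩
  -- `|G| = 4 g₀`
  obtain ⟨g₀, hG⟩ : 4 ∣ Nat.card G := by rw [← hP]; exact Subgroup.card_subgroup_dvd_card _
  have hg0 : Odd g₀ := by
    rw [← Nat.not_even_iff_odd, even_iff_two_dvd]
    rintro ⟨k, rfl⟩
    have h1 : (2 : ℕ) ^ 3 ∣ Nat.card G := by rw [hG]; exact ⟨k, by ring⟩
    have h2 : Nat.card (P : Subgroup G) = 2 ^ (Nat.card G).factorization 2 := P.card_eq_multiplicity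
    rw [hP] at h2
    have h3 := (Nat.Prime.pow_dvd_iff_le_factorization Nat.prime_two Nat.card_pos.ne').1 h1
    have h4 : (2 : ℕ) ^ 3 ≤ 2 ^ (Nat.card G).factorization 2 := Nat.pow_le_pow_right (by norm_num) h3
    omega
  have hnc : ¬ ∃ N : Subgroup G, N.Normal ∧ Nat.card N = g₀ := by
    rintro ⟨N, hN, hc⟩
    rcases hN.eq_bot_or_eq_top with rfl | rfl
    · rw [Subgroup.card_bot] at hc
      rw [← hc] at hG
      have h4 : Nat.card G = 2 ^ 2 := by rw [hG]; norm_num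
      exact hna (IsPGroup.isMulCommutative_of_card_eq_prime_sq h4)
    · rw [Subgroup.card_top] at hc
      rw [hc] at hG
      have := hg0.pos
      omega
  obtain ⟨M, hM⟩ := Cfsg.Agent.H4.exists_isPModular 2
  obtain ⟨hK, hone⟩ := H74.klein_of_no_complement g₀ hg0 hG hnc P
  obtain ⟨J, hJ2, hJ⟩ := H4.exists_involution hK
  obtain ⟨ζ₂, ζ₃, ζ₄, ε, hε, hn2, hn3, h23, h24, h34, hB, hval, hm2, hm3, hm4, -⟩ :=
    H4.kleinBlock hM hK hone
  obtain ⟨hv2, hv3, hv4⟩ := hval J hJ2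
  have hn4 : (ζ₄ : G → ℂ) ≠ (fun _ => 1) := by
    intro h'
    rw [h'] at hv4
    norm_num at hv4
  obtain ⟨hrel, n, hn, hform⟩ := H74.four_relations hM hK hone hJ hJ2 (ε₁ := 1) (ε₂ := ε)
    (ε₃ := -1) hB ⟨hn2, hn3, hn4, h23, h24, h34⟩ ⟨Or.inl rfl, hε, Or.inr rfl⟩
    ⟨by rw [hv2]; simp, hv3, by rw [hv4]; simp⟩
  have hperf := perf_of_simple hna
  have hdeg1 : ∀ χ : IrrCharacter G, (χ : G → ℂ) ≠ (fun _ => 1) → charDegree (χ : G → ℂ) ≠ 1 := by
    intro χ hχ h1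
    apply hχ
    apply eq_one_of_degree hperf (irr_isCharacter χ)
    rw [BlkC.charDegree_spec, h1]
    norm_num
  have hdd : ∀ χ : IrrCharacter G, charDegree (χ : G → ℂ) ∣ Nat.card G :=
    fun χ => Cfsg.Agent.H79.irr_degree_dvd_card χ
  have hd1 := hdeg1 ζ₂ hn2
  have hd2 := hdeg1 ζ₃ hn3
  have hd3 := hdeg1 ζ₄ hn4
  have e2 := hdd ζ₂
  have e3 := hdd ζ₃
  have e4 := hdd ζ₄
  have hpos2 : 0 < charDegree (ζ₂ : G → ℂ) := Cfsg.Agent.H79.irr_degree_pos ζ₂
  have hpos3 : 0 < charDegree (ζ₃ : G → ℂ) := Cfsg.Agent.H79.irr_degree_pos ζ₃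
  have hpos4 : 0 < charDegree (ζ₄ : G → ℂ) := Cfsg.Agent.H79.irr_degree_pos ζ₄
  -- conclusion from a character of degree `3` with value `-1`
  have fin : ∀ χ : IrrCharacter G, χ ∈ principalBlock M G → charDegree (χ : G → ℂ) = 3 →
      (χ : G → ℂ) J = -1 → False := by
    intro χ hχ h3 hJ1
    have hv : (χ : G → ℂ) g = -1 := by rw [H4.value_of_even hM hK hone hχ hg hJ2, hJ1]
    have hv' : (χ : G → ℂ) g⁻¹ = -1 := by
      rw [H4.value_of_even hM hK hone hχ (g := g⁻¹) (by rwa [orderOf_inv]) hJ2, hJ1]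
    have h1 : (χ : G → ℂ) 1 = 3 := by rw [BlkC.charDegree_spec, h3]; norm_num
    have h2 := value_sq hperf (irr_isCharacter χ) h1 hv hv'
    -- the kernel
    have hker : g * g = 1 := by
      by_contra hne
      have hmem : g * g ∈ charKer χ := by rw [mem_charKer, h2, h1]
      rcases (charKer_normal χ).eq_bot_or_eq_top with hb | ht
      · rw [hb, Subgroup.mem_bot] at hmem
        exact hne hmem
      · have hJm : J ∈ charKer χ := by rw [ht]; exact Subgroup.mem_top J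
        rw [mem_charKer, hJ1, h1] at hJm
        norm_num at hJm
    have h5 : orderOf g ∣ 2 := orderOf_dvd_of_pow_eq_one (by rw [pow_two, hker])
    have := Nat.le_of_dvd (by norm_num) h5
    omega
  have hB2 : ζ₂ ∈ principalBlock M G := by rw [hB]; exact Or.inr (Or.inl rfl)
  have hB3 : ζ₃ ∈ principalBlock M G := by rw [hB]; exact Or.inr (Or.inr (Or.inl rfl))
  have hB4 : ζ₄ ∈ principalBlock M G := by rw [hB]; exact Or.inr (Or.inr (Or.inr rfl))
  have fin3 := fin ζ₃ hB3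
  have fin4 := fin ζ₄ hB4
  rw [hv3] at fin3
  set d2 := charDegree (ζ₂ : G → ℂ) with hd2'
  set d3 := charDegree (ζ₃ : G → ℂ) with hd3'
  set d4 := charDegree (ζ₄ : G → ℂ) with hd4'
  set cJ := Nat.card (Subgroup.centralizer ({J} : Set G)) with hcJ
  have hcJd : cJ ∣ Nat.card G := Subgroup.card_subgroup_dvd_card _
  have hnd : n ∣ Nat.card G := (Dvd.intro _ hn).trans hcJd
  -- the numbers
  obtain ⟨x', hx'⟩ : ∃ x' : ℤ, (d2 : ℤ) = 2 * x' - 1 := by
    obtain ⟨k, hk⟩ := hm2; exact ⟨2 * k + 1, by linarith⟩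
  obtain ⟨y', hy'⟩ : ∃ y' : ℤ, ε * (d3 : ℤ) = 2 * y' - 1 := by
    obtain ⟨k, hk⟩ := hm3
    rcases hε with rfl | rfl
    · exact ⟨2 * k + 1, by linarith⟩
    · exact ⟨-2 * k + 1, by linarith⟩
  obtain ⟨z', hz'⟩ : ∃ z' : ℤ, -(d4 : ℤ) = 2 * z' - 1 := by
    obtain ⟨k, hk⟩ := hm4; exact ⟨-2 * k + 1, by linarith⟩
  have ox : Odd x' := by
    obtain ⟨k, hk⟩ := hm2; exact ⟨k, by linarith⟩
  have oy : Odd y' := by
    obtain ⟨k, hk⟩ := hm3
    rcases hε with rfl | rfl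
    · exact ⟨k, by linarith⟩
    · exact ⟨-k, by linarith⟩
  have oz : Odd z' := by
    obtain ⟨k, hk⟩ := hm4; exact ⟨-k, by linarith⟩
  have hsum : x' + y' + z' = 1 := by
    have : 1 + (d2 : ℤ) + ε * d3 + -(d4 : ℤ) = 0 := by linarith
    rw [hx', hy', hz'] at this
    linarith
  have hmain : (Nat.card G : ℤ) * (x' * y' * z') = cJ * n ^ 2 * (d2 * (ε * d3) * (-d4)) := by
    have q2 : (d2 : ℚ) ≠ 0 := by exact_mod_cast hpos2.ne'
    have q3 : (d3 : ℚ) ≠ 0 := by exact_mod_cast hpos3.ne'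
    have q4 : (d4 : ℚ) ≠ 0 := by exact_mod_cast hpos4.ne'
    have hεsq : (ε : ℚ) * ε = 1 := by rcases hε with rfl | rfl <;> norm_num
    have rx : (d2 : ℚ) = 2 * x' - 1 := by exact_mod_cast hx'
    have ry : (ε : ℚ) * (d3 : ℚ) = 2 * y' - 1 := by exact_mod_cast hy'
    have rz : -(d4 : ℚ) = 2 * z' - 1 := by exact_mod_cast hz'
    have rs : (x' : ℚ) + y' + z' = 1 := by exact_mod_cast hsum
    have h1 : (Nat.card G : ℚ) * ((d2 * (ε * d3) * (-d4)) + (ε * d3) * (-d4) + d2 * (-d4) + d2 * (ε * d3)) =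
        8 * cJ * n ^ 2 * (d2 * (ε * d3) * (-d4)) := by
      have h2 : ((1 : ℤ) : ℚ) = 1 := by norm_num
      have h3 : ((-1 : ℤ) : ℚ) = -1 := by norm_num
      rw [h2, h3] at hform
      rw [← hform]
      field_simp
      linear_combination ((Nat.card G : ℚ) * d2 * d4) * hεsq
    have h2 : (d2 * (ε * d3) * (-d4)) + (ε * d3) * (-d4) + d2 * (-d4) + d2 * (ε * d3) =
        8 * ((x' : ℚ) * y' * z') := by
      rw [ry, rz, rx]
      have : (z' : ℚ) = 1 - x' - y' := by linarith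
      rw [this]
      ring
    rw [h2] at h1
    have h3 : (Nat.card G : ℚ) * (x' * y' * z') = cJ * n ^ 2 * (d2 * (ε * d3) * (-d4)) := by
      linear_combination h1 / 8
    exact_mod_cast h3
  -- primes
  have hεd : ∀ r : ℕ, r.Prime → (r : ℤ) ∣ ε * d3 → r ∣ d3 := by
    intro r hr h
    have h1 : (r : ℤ) ∣ d3 := by
      rcases hε with rfl | rfl
      · simpa using h
      · simpa using h
    exact_mod_cast h1
  have hodd : ∀ r : ℕ, r.Prime → ∀ w w' : ℤ, w = 2 * w' - 1 → (r : ℤ) ∣ w → r ≠ 2 := by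
    rintro r hr w w' hw hd rfl
    obtain ⟨k, hk⟩ := hd
    push_cast at hk
    omega
  have hGr : ∀ r : ℕ, r.Prime → r ≠ 2 → r ∣ Nat.card G → r = p ∨ r = q := fun r hr h2 hd =>
    (hpi r hr hd).resolve_left h2
  have hbig : ∀ r : ℕ, r.Prime → (r : ℤ) ∣ (cJ : ℤ) * n ^ 2 * (d2 * (ε * d3) * (-d4)) → r ∣ Nat.card G := by
    intro r hr h
    have hrp : Prime (r : ℤ) := Nat.prime_iff_prime_int.1 hr
    rcases hrp.dvd_or_dvd h with h1 | h1
    · rcases hrp.dvd_or_dvd h1 with h2 | h2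
      · exact (Int.natCast_dvd_natCast.1 h2).trans hcJd
      · exact (Int.natCast_dvd_natCast.1 (hrp.dvd_of_dvd_pow h2)).trans hnd
    · rcases hrp.dvd_or_dvd h1 with h2 | h2
      · rcases hrp.dvd_or_dvd h2 with h3 | h3
        · exact (Int.natCast_dvd_natCast.1 h3).trans e2
        · exact (hεd r hr h3).trans e3
      · exact (Int.natCast_dvd_natCast.1 ((dvd_neg).1 h2)).trans e4
  have hx'' : ∀ w : ℤ, Odd w → w ∣ x' * y' * z' → ∀ r : ℕ, r.Prime → (r : ℤ) ∣ w → r = p ∨ r = q := by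
    intro w how hw r hr hrw
    have h2 : r ≠ 2 := by
      rintro rfl
      obtain ⟨k, hk⟩ := how
      obtain ⟨l, hl⟩ := hrw
      push_cast at hl
      omega
    apply hGr r hr h2
    apply hbig r hr
    rw [← hmain]
    exact Dvd.dvd.mul_left (hrw.trans hw) _
  have hres := arith hp hq hx' hy' hz' hsum
    (fun r hr h => hGr r hr (hodd r hr _ _ hx' h) ((Int.natCast_dvd_natCast.1 h).trans e2))
    (fun r hr h => hGr r hr (hodd r hr _ _ hy' h) ((hεd r hr h).trans e3))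
    (fun r hr h => hGr r hr (hodd r hr _ _ hz' h) ((Int.natCast_dvd_natCast.1 ((dvd_neg).1 h)).trans e4))
    (hx'' x' ox ⟨y' * z', by ring⟩) (hx'' y' oy ⟨x' * z', by ring⟩) (hx'' z' oz ⟨x' * y', by ring⟩)
    (by omega) (by rcases hε with rfl | rfl <;> omega) (by omega)
  rcases hres with h | h | h
  · omega
  · rcases hε with rfl | rfl
    · omega
    · exact fin3 (by omega) (by norm_num)
  · exact fin4 (by omega) hv4

end Cfsg.Agent.H93.F5
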