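import Cfsg.Agent.H79.SigRed
import Cfsg.Agent.H80.StrongEmb
import Cfsg.Agent.S0144

/-!
# The spectrum condition and the strongly embedded subgroup
-/

set_option autoImplicit false
set_option linter.unusedSectionVars false
set_option linter.style.haveILetI false

universe u

namespace Cfsg.Agent.H93.F5

open Cfsg Cfsg.Agent

/-- every element has order `1, 2, p, q` or `2p` -/
def Spec (p q : ℕ) (G : Type u) [Group G] : Prop :=
  ∀ g : G, orderOf g = 1 ∨ orderOf g = 2 ∨ orderOf g = p ∨ orderOf g = q ∨ orderOf g = 2 * p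

variable {G : Type u} [Group G] [Finite G] {p q : ℕ}

theorem card_primes (h : Spec p q G) (hp : p.Prime) (hq : q.Prime) {r : ℕ} (hr : r.Prime)
    (hd : r ∣ Nat.card G) : r = 2 ∨ r = p ∨ r = q := by
  haveI := Fact.mk hr
  obtain ⟨g, hg⟩ := exists_prime_orderOf_dvd_card' r hd
  rcases h g with h1 | h1 | h1 | h1 | h1 <;> rw [hg] at h1
  · exact absurd h1 hr.ne_one
  · exact Or.inl h1
  · exact Or.inr (Or.inl h1)
  · exact Or.inr (Or.inr h1)
  · exfalso
    have h2 : ¬ (2 * p).Prime := Nat.not_prime_mul (by norm_num) hp.ne_one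
    exact h2 (h1 ▸ hr)

theorem cent_primes (h : Spec p q G) (hp : p.Prime) (hq : q.Prime) (hp2 : p ≠ 2) (hq2 : q ≠ 2)
    {s : G} (hs : orderOf s = 2) {r : ℕ} (hr : r.Prime)
    (hd : r ∣ Nat.card (Subgroup.centralizer ({s} : Set G))) : r = 2 ∨ r = p := by
  by_contra hcon
  push Not at hcon
  haveI := Fact.mk hr
  obtain ⟨y, hy⟩ := exists_prime_orderOf_dvd_card' r hd
  have hy' : orderOf (y : G) = r := by rw [Subgroup.orderOf_coe, hy]
  have hc : Commute s (y : G) := (Subgroup.mem_centralizer_singleton_iff.1 y.2).symm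
  have h1 : orderOf (s * (y : G)) = 2 * r := by
    rw [hc.orderOf_mul_eq_mul_orderOf_of_coprime, hs, hy']
    rw [hs, hy']
    exact (Nat.coprime_primes Nat.prime_two hr).2 hcon.1.symm
  have h2r : ¬ (2 * r).Prime := Nat.not_prime_mul (by norm_num) hr.ne_one
  have := hr.two_le
  rcases h (s * (y : G)) with h2 | h2 | h2 | h2 | h2 <;> rw [h1] at h2
  · omega
  · omega
  · exact h2r (h2 ▸ hp)
  · exact h2r (h2 ▸ hq)
  · exact hcon.2 (by omega)

theorem eq_pow_mul_pow {a b : ℕ} (n : ℕ) (hn : n ≠ 0) (h : ∀ r : ℕ, r.Prime → r ∣ n → r = a ∨ r = b) :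
    ∃ i j : ℕ, n = a ^ i * b ^ j := by
  induction n using Nat.strong_induction_on with
  | _ n ih =>
    by_cases h1 : n = 1
    · exact ⟨0, 0, by rw [h1]; simp⟩
    · obtain ⟨r, hr, m, hm⟩ := Nat.exists_prime_and_dvd h1
      have hm0 : m ≠ 0 := by rintro rfl; rw [mul_zero] at hm; exact hn hm
      have hlt : m < n := by
        rw [hm]
        exact lt_mul_of_one_lt_left (Nat.pos_of_ne_zero hm0) hr.one_lt
      obtain ⟨i, j, hij⟩ := ih m hlt hm0 (fun s hs hd => h s hs (hd.trans ⟨r, by rw [hm, mul_comm]⟩))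
      rcases h r hr ⟨m, hm⟩ with e | e
      · exact ⟨i + 1, j, by rw [hm, hij, e]; ring⟩
      · exact ⟨i, j + 1, by rw [hm, hij, e]; ring⟩

theorem cent_solvable (h : Spec p q G) (hp : p.Prime) (hq : q.Prime) (hp2 : p ≠ 2) (hq2 : q ≠ 2)
    {s : G} (hs : orderOf s = 2) : Group.IsSolvable (Subgroup.centralizer ({s} : Set G)) := by
  obtain ⟨i, j, hij⟩ := eq_pow_mul_pow (a := 2) (b := p)
    (Nat.card (Subgroup.centralizer ({s} : Set G))) Nat.card_pos.ne'
    (fun r hr hd => cent_primes h hp hq hp2 hq2 hs hr hd)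
  exact Cfsg.Agent.S0144.result 2 p i j Nat.prime_two hp hij

theorem two_elt (h : Spec p q G) (hp : p.Prime) (hq : q.Prime) (hp2 : p ≠ 2) (hq2 : q ≠ 2)
    (P : Sylow 2 G) {x : G} (hx : x ∈ P) : x * x = 1 := by
  obtain ⟨k, hk⟩ := (IsPGroup.iff_orderOf.1 P.2) ⟨x, hx⟩
  rw [Subgroup.orderOf_mk] at hk
  have key : ∀ r : ℕ, r.Prime → r ≠ 2 → ¬ r ∣ 2 ^ k := fun r hr h2 hd =>
    h2 ((Nat.prime_dvd_prime_iff_eq hr Nat.prime_two).1 (hr.dvd_of_dvd_pow hd))
  rcases h x with h1 | h1 | h1 | h1 | h1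
  · rw [orderOf_eq_one_iff.1 h1, mul_one]
  · rw [← pow_two, ← h1, pow_orderOf_eq_one]
  · exact absurd (by rw [← hk, h1]) (key p hp hp2)
  · exact absurd (by rw [← hk, h1]) (key q hq hq2)
  · exact absurd (by rw [← hk, h1]; exact Dvd.intro_left 2 rfl) (key p hp hp2)

theorem sylow_comm {P : Sylow 2 G} (hP : ∀ x ∈ P, x * x = 1) : ∀ x ∈ P, ∀ y ∈ P, x * y = y * x := by
  intro x hx y hy
  have h1 := hP (x * y) (mul_mem hx hy)
  have h2 := hP x hx
  have h3 := hP y hy
  have hxi : x⁻¹ = x := inv_eq_of_mul_eq_one_left h2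
  have hyi : y⁻¹ = y := inv_eq_of_mul_eq_one_left h3
  have h4 : (x * y)⁻¹ = x * y := inv_eq_of_mul_eq_one_left h1
  rw [← h4, mul_inv_rev, hxi, hyi]

/-- **The strongly embedded subgroup** in the case `|S| ≥ 8`. -/
theorem exists_stronglyEmbedded [IsSimpleGroup G] (hna : ¬ IsMulCommutative G) (h : Spec p q G)
    (hp : p.Prime) (hq : q.Prime) (hp2 : p ≠ 2) (hq2 : q ≠ 2) (P : Sylow 2 G) (h8 : 8 ≤ Nat.card P) :
    ∃ M : Subgroup G, Cfsg.IsStronglyEmbedded M := by
  haveI : Fact (Nat.Prime 2) := ⟨Nat.prime_two⟩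
  haveI := Fact.mk hp
  have hPP : ∀ x ∈ P, x * x = 1 := fun x hx => two_elt h hp hq hp2 hq2 P hx
  have hPc := sylow_comm hPP
  have hPel : Cfsg.IsElementaryAbelian 2 (P : Subgroup G) :=
    ⟨IsMulCommutative.of_comm (fun x y => Subtype.ext (hPc x x.2 y y.2)), fun a ha => by
      rw [pow_two]; exact hPP a ha⟩
  have hord : ∀ a ∈ P, a ≠ 1 → orderOf a = 2 := fun a ha ha1 =>
    orderOf_eq_prime (by rw [pow_two]; exact hPP a ha) ha1
  have hsolv : ∀ a ∈ (P : Subgroup G), a ≠ 1 →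
      Group.IsSolvable ↥(Subgroup.centralizer ({a} : Set G)) := fun a ha ha1 =>
    cent_solvable h hp hq hp2 hq2 (hord a ha ha1)
  have hF := H79.SigRed.functor (p := 2) (P : Subgroup G) hPel hsolv
  have hpg : ∀ a ∈ (P : Subgroup G), a ≠ 1 → IsPGroup p ↥(Cfsg.centralizerPPrimeCore 2 a) := by
    intro a ha ha1
    have h1 : ∀ r : ℕ, r.Prime → r ∣ Nat.card (Cfsg.centralizerPPrimeCore 2 a) → r = p := by
      intro r hr hd
      have h2 := SigF.Bal1.cppc_not_dvd (p := 2) a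
      have h3 := Subgroup.card_dvd_of_le (SigF.Bal1.cppc_le (p := 2) a)
      rcases cent_primes h hp hq hp2 hq2 (hord a ha ha1) hr (hd.trans h3) with e | e
      · rw [e] at hd; exact absurd hd h2
      · exact e
    have h2 := Nat.eq_prime_pow_of_unique_prime_dvd (p := p)
      (Nat.card_pos (α := Cfsg.centralizerPPrimeCore 2 a)).ne' (fun {r} hr hd => h1 r hr hd)
    exact IsPGroup.of_card h2
  have hcomp := SigF.complete_of_single_prime (q := p) hPel (by norm_num; exact h8) hF hpg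
  set W : Subgroup G := ⨆ a : {a : G // a ∈ (P : Subgroup G) ∧ a ≠ 1},
    Cfsg.centralizerPPrimeCore 2 (a : G) with hW
  have hWodd : ¬ 2 ∣ Nat.card W := by
    obtain ⟨-, X, hX1, hX2, hX3⟩ := hcomp
    have hle : W ≤ X := by
      rw [hW, iSup_le_iff]
      rintro ⟨a, ha, ha1⟩
      exact (hX3 a ha ha1).symm.le.trans inf_le_left
    exact fun h => hX2 (h.trans (Subgroup.card_dvd_of_le hle))
  have hNW : Subgroup.normalizer ((P : Subgroup G) : Set G) ≤ Subgroup.normalizer (W : Set G) := by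
    intro g hg
    rw [Subgroup.mem_normalizer_iff] at hg
    exact H79.SigRed.mem_normalizer_W hg
  have hM : W ⊔ Subgroup.normalizer ((P : Subgroup G) : Set G) ≠ ⊤ := by
    intro htop
    have hWn : W.Normal := by
      rw [← Subgroup.normalizer_eq_top_iff, eq_top_iff, ← htop]
      exact sup_le Subgroup.le_normalizer hNW
    rcases hWn.eq_bot_or_eq_top with h1 | h1
    · rw [h1, bot_sup_eq, Subgroup.normalizer_eq_top_iff] at htop
      rcases htop.eq_bot_or_eq_top with h2 | h2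
      · rw [h2, Subgroup.card_bot] at h8
        omega
      · apply hna
        refine IsMulCommutative.of_comm (fun x y => hPc x ?_ y ?_)
        · show x ∈ (P : Subgroup G); rw [h2]; trivial
        · show y ∈ (P : Subgroup G); rw [h2]; trivial
    · rw [h1, Subgroup.card_top] at hWodd
      apply hWodd
      have h2 : Nat.card (P : Subgroup G) ∣ Nat.card G := Subgroup.card_subgroup_dvd_card _
      obtain ⟨k, hk⟩ := IsPGroup.iff_card.1 P.2
      rw [hk] at h2 h8
      have hk0 : k ≠ 0 := by rintro rfl; norm_num at h8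
      exact (dvd_pow_self 2 hk0).trans h2
  have hPM : (P : Subgroup G) ≤ W ⊔ Subgroup.normalizer ((P : Subgroup G) : Set G) :=
    Subgroup.le_normalizer.trans le_sup_right
  have hPne : (P : Subgroup G) ≠ ⊥ := by
    intro h1
    rw [h1, Subgroup.card_bot] at h8
    omega
  have hle : ∀ b ∈ (P : Subgroup G), b ≠ 1 → ∀ Q : Subgroup G, Q ≤ (P : Subgroup G) → b ∈ Q →
      Subgroup.normalizer (Q : Set G) ≤ W ⊔ Subgroup.normalizer ((P : Subgroup G) : Set G) := by
    intro b hbP hb1 Q hQ hbQ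
    refine (H79.SigRed.norm_le P hPc hQ hbQ).trans (sup_le ?_ le_sup_right)
    refine (H79.SigRed.cent_le P hPc hbP
      (SigF.PC.isPConstrained_of_isSolvable (hsolv _ hbP hb1))).trans (sup_le_sup_right ?_ _)
    exact le_iSup (fun a : {a : G // a ∈ (P : Subgroup G) ∧ a ≠ 1} =>
      Cfsg.centralizerPPrimeCore 2 (a : G)) ⟨_, hbP, hb1⟩
  obtain ⟨M, hMdef⟩ : ∃ M, M = W ⊔ Subgroup.normalizer ((P : Subgroup G) : Set G) := ⟨_, rfl⟩
  rw [← hMdef] at hM hPM hle
  refine ⟨M, (H80.stronglyEmbedded_iff_normalizer hM (P.subtype hPM) ?_).2 ?_⟩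
  · intro h1
    apply hPne
    rw [Sylow.coe_subtype, Subgroup.subgroupOf_eq_bot] at h1
    exact (disjoint_iff.1 h1) ▸ (inf_eq_left.2 hPM).symm
  · intro X hX hX1
    have hXP : X.map M.subtype ≤ (P : Subgroup G) := by
      rintro _ ⟨x, hx, rfl⟩
      exact hX hx
    obtain ⟨b, hb1⟩ := Subgroup.ne_bot_iff_exists_ne_one.mp hX1
    have hbX : ((b : M) : G) ∈ X.map M.subtype := ⟨b, b.2, rfl⟩
    have hb1' : ((b : M) : G) ≠ 1 := fun h => hb1 (Subtype.ext (Subtype.ext h))
    exact hle _ (hXP hbX) hb1' _ hXP hbX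

end Cfsg.Agent.H93.F5
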